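import Cfsg.Agent.H526.ObParity
import Cfsg.Agent.ClassicalGeometry.PSLTorus
import Cfsg.Agent.ClassicalGeometry.NonsplitTorus

/-!
# `PSL_2(q)`, `q > 3` odd, has more than one 2-block (helper102, for S5004, S5007)

Let `r` be an odd prime divisor of `(q + 1) / 2` if `q = 1 mod 4`, of `(q - 1) / 2` if `q = 3 mod 4`, `w` an element
of order `r` inverted by the involution `t`.  The elements `k` with `k ^ 2 = 1`, `k t = t k`, `orderOf (k w) = r` are
permuted by the involution `n` of `PGL_2(q)` centralizing `w` and `t`, and `k = 1` is the only one fixed by it.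
-/

set_option autoImplicit false
set_option linter.unusedSectionVars false

open Matrix
open scoped MatrixGroups

namespace Cfsg.Agent.H102.NbPslTwo

open Cfsg.Agent.ClassicalGeometry.PSLTorus Cfsg.Agent.H526.OB

variable {F : Type*} [Field F]

/-- matrices of degree two commuting with a non-scalar matrix -/
theorem comm_two {a y : Matrix (Fin 2) (Fin 2) F} (hy : ∀ c : F, y ≠ c • (1 : Matrix (Fin 2) (Fin 2) F))
    (h : a * y = y * a) : ∃ α β : F, a = α • y + β • (1 : Matrix (Fin 2) (Fin 2) F) := by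
  have h00 := congrFun (congrFun h 0) 0
  have h01 := congrFun (congrFun h 0) 1
  have h10 := congrFun (congrFun h 1) 0
  simp only [Matrix.mul_apply, Fin.sum_univ_two] at h00 h01 h10
  have hne : y 0 1 ≠ 0 ∨ y 1 0 ≠ 0 ∨ y 0 0 - y 1 1 ≠ 0 := by
    by_contra hcon
    push Not at hcon
    obtain ⟨h1, h2, h3⟩ := hcon
    apply hy (y 0 0)
    ext i j
    fin_cases i <;> fin_cases j
    · simp
    · simpa using h1
    · simpa using h2
    · simpa using (sub_eq_zero.1 h3).symm
  have key : ∃ α : F, a 0 1 = α * y 0 1 ∧ a 1 0 = α * y 1 0 ∧ a 0 0 - a 1 1 = α * (y 0 0 - y 1 1) := by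
    rcases hne with h | h | h
    · exact ⟨a 0 1 / y 0 1, by field_simp, by field_simp; linear_combination -h00, by field_simp; linear_combination h01⟩
    · exact ⟨a 1 0 / y 1 0, by field_simp; linear_combination h00, by field_simp, by field_simp; linear_combination -h10⟩
    · refine ⟨(a 0 0 - a 1 1) / (y 0 0 - y 1 1), ?_, ?_, ?_⟩ <;> rw [div_mul_eq_mul_div, eq_div_iff h]
      · linear_combination -h01
      · linear_combination h10
  obtain ⟨α, h1, h2, h3⟩ := key
  refine ⟨α, a 0 0 - α * y 0 0, ?_⟩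
  ext i j
  rw [Matrix.add_apply, Matrix.smul_apply, Matrix.smul_apply, smul_eq_mul, smul_eq_mul]
  fin_cases i <;> fin_cases j
  · simp
  · simpa using h1
  · simpa using h2
  · simp only [Fin.mk_one, Fin.isValue, Matrix.one_apply_eq, mul_one]
    linear_combination -h3

section Fin

variable [Fintype F]

/-- `Frobenius` on `F[K]`, `K² = -1` -/
theorem pow_card (K : Matrix (Fin 2) (Fin 2) F) (hK : K * K = -1) (hq : Odd (Fintype.card F)) (α β : F) :
    (α • K + β • (1 : Matrix (Fin 2) (Fin 2) F)) ^ Fintype.card F =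
      ((-1) ^ ((Fintype.card F - 1) / 2) * α) • K + β • (1 : Matrix (Fin 2) (Fin 2) F) := by
  obtain ⟨p, hp⟩ := CharP.exists F
  have hpp : Fact p.Prime := ⟨CharP.char_is_prime F p⟩
  obtain ⟨n, -, hn⟩ := FiniteField.card F p
  have hc : Commute (α • K) (β • (1 : Matrix (Fin 2) (Fin 2) F)) :=
    ((Commute.one_right K).smul_left α).smul_right β
  have h1 : (α • K + β • (1 : Matrix (Fin 2) (Fin 2) F)) ^ Fintype.card F =
      (α • K) ^ Fintype.card F + (β • (1 : Matrix (Fin 2) (Fin 2) F)) ^ Fintype.card F := by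
    rw [hn]
    exact add_pow_char_pow_of_commute p n hc
  have h2 : K ^ Fintype.card F = ((-1 : F) ^ ((Fintype.card F - 1) / 2)) • K := by
    obtain ⟨k, hk⟩ := hq
    rw [hk, show (2 * k + 1 - 1) / 2 = k by omega, pow_succ, pow_mul, sq, hK]
    rcases Nat.even_or_odd k with h | h
    · rw [h.neg_one_pow, h.neg_one_pow, one_mul, one_smul]
    · rw [h.neg_one_pow, h.neg_one_pow, neg_one_mul, neg_one_smul]
  rw [h1, smul_pow, smul_pow, one_pow, FiniteField.pow_card, FiniteField.pow_card, h2, smul_smul, mul_comm]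

/-- the arithmetical condition on `r` -/
def Cop (F : Type*) [Fintype F] (r : ℕ) : Prop :=
  ¬ r ∣ Fintype.card F ∧ (Fintype.card F % 4 = 1 → ¬ r ∣ Fintype.card F - 1) ∧
    (Fintype.card F % 4 = 3 → ¬ r ∣ Fintype.card F + 1)

theorem two_ne (hq : Odd (Fintype.card F)) : (2 : F) ≠ 0 := by
  intro h
  obtain ⟨p, hp⟩ := CharP.exists F
  have hpp : p.Prime := CharP.char_is_prime F p
  obtain ⟨n, -, hn⟩ := FiniteField.card F p
  have h1 : p ∣ 2 := (CharP.cast_eq_zero_iff F p 2).1 (by exact_mod_cast h)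
  have h2 : p = 2 := (Nat.prime_dvd_prime_iff_eq hpp Nat.prime_two).1 h1
  rw [hn, h2] at hq
  exact (Nat.not_even_iff_odd.2 hq) (Nat.even_pow.2 ⟨even_two, n.2.ne'⟩)

/-- elements of order `r` do not commute with `K`, `K² = -1` -/
theorem eq_one_of_commute (hq : Odd (Fintype.card F)) {r : ℕ} (hr : r.Prime) (hr2 : r ≠ 2) (hco : Cop F r)
    (K : Matrix (Fin 2) (Fin 2) F) (hK : K * K = -1) (hKs : ∀ c : F, K ≠ c • (1 : Matrix (Fin 2) (Fin 2) F))
    (X : SL(2, F)) (hX : X ^ r = 1) (hc : (X : Matrix (Fin 2) (Fin 2) F) * K = K * X) : X = 1 := by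
  obtain ⟨α, β, hαβ⟩ := comm_two hKs hc
  have h1 := pow_card K hK hq α β
  rw [← hαβ] at h1
  have key : ∀ N : ℕ, ¬ r ∣ N → X ^ N = 1 → X = 1 := by
    intro N hN h
    have h2 : orderOf X ∣ Nat.gcd r N := Nat.dvd_gcd (orderOf_dvd_of_pow_eq_one hX) (orderOf_dvd_of_pow_eq_one h)
    rw [(Nat.Prime.coprime_iff_not_dvd hr).2 hN] at h2
    exact orderOf_eq_one_iff.1 (Nat.dvd_one.1 h2)
  have hq1 : 1 < Fintype.card F := Fintype.one_lt_card
  rcases (show Fintype.card F % 4 = 1 ∨ Fintype.card F % 4 = 3 by obtain ⟨k, hk⟩ := hq; omega) with h4 | h4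
  · have h2 : Even ((Fintype.card F - 1) / 2) := ⟨(Fintype.card F - 1) / 4, by omega⟩
    rw [h2.neg_one_pow, one_mul, ← hαβ] at h1
    refine key (Fintype.card F - 1) (hco.2.1 h4) ?_
    have h3 : X ^ Fintype.card F = X := Subtype.ext (by rw [Matrix.SpecialLinearGroup.coe_pow]; exact h1)
    have h5 : X ^ (Fintype.card F - 1) * X = 1 * X := by
      rw [← pow_succ, Nat.sub_add_cancel hq1.le, h3, one_mul]
    exact mul_right_cancel h5
  · have h2 : Odd ((Fintype.card F - 1) / 2) := ⟨(Fintype.card F - 3) / 4, by omega⟩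
    rw [h2.neg_one_pow, neg_one_mul, neg_smul] at h1
    have h3 : ((X ^ (Fintype.card F + 1) : SL(2, F)) : Matrix (Fin 2) (Fin 2) F) =
        (α ^ 2 + β ^ 2) • (1 : Matrix (Fin 2) (Fin 2) F) := by
      rw [Matrix.SpecialLinearGroup.coe_pow, pow_succ, h1, hαβ]
      simp only [add_mul, mul_add, neg_mul, smul_mul_smul_comm, hK, mul_one, one_mul]
      rw [smul_neg, neg_neg, add_smul, sq, sq, mul_comm α β]
      abel
    have h4' : (α ^ 2 + β ^ 2) ^ 2 = 1 := by
      have h5 := (X ^ (Fintype.card F + 1)).det_coe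
      rw [h3, Matrix.det_smul, Matrix.det_one, mul_one, Fintype.card_fin] at h5
      exact h5
    refine key ((Fintype.card F + 1) * 2) ?_ ?_
    · intro h
      rcases hr.dvd_mul.1 h with h | h
      · exact hco.2.2 h4 h
      · exact hr2 ((Nat.prime_dvd_prime_iff_eq hr Nat.prime_two).1 h)
    · apply Subtype.ext
      rw [pow_mul, Matrix.SpecialLinearGroup.coe_pow, h3, smul_pow, one_pow, h4', one_smul]
      rfl

/-- the trace zero part of `W` -/
def nn (W : SL(2, F)) : Matrix (Fin 2) (Fin 2) F := (W : Matrix (Fin 2) (Fin 2) F) - (W⁻¹ : SL(2, F))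

/-- `4 - (trace W)²` -/
def nu (W : SL(2, F)) : F := 4 - (W 0 0 + W 1 1) ^ 2

theorem det_eq (W : SL(2, F)) : W 0 0 * W 1 1 - W 0 1 * W 1 0 = 1 := by
  have := W.det_coe
  rwa [Matrix.det_fin_two] at this

theorem nn_eq (W : SL(2, F)) : nn W = !![W 0 0 - W 1 1, 2 * W 0 1; 2 * W 1 0, W 1 1 - W 0 0] := by
  rw [nn, Matrix.SpecialLinearGroup.coe_inv, Matrix.adjugate_fin_two]
  ext i j
  fin_cases i <;> fin_cases j <;> simp <;> ring

theorem nn_mul (W : SL(2, F)) : nn W * nn W = (-nu W) • (1 : Matrix (Fin 2) (Fin 2) F) := by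
  have h := det_eq W
  rw [nn_eq, nu]
  ext i j
  fin_cases i <;> fin_cases j
  · simp [Matrix.mul_apply, Fin.sum_univ_two]
    linear_combination (-4) * h
  · simp [Matrix.mul_apply, Fin.sum_univ_two]
    ring
  · simp [Matrix.mul_apply, Fin.sum_univ_two]
    ring
  · simp [Matrix.mul_apply, Fin.sum_univ_two]
    linear_combination (-4) * h

theorem nn_det (W : SL(2, F)) : (nn W).det = nu W := by
  have h := det_eq W
  rw [nn_eq, nu, Matrix.det_fin_two_of]
  linear_combination 4 * h

theorem nn_trace (W : SL(2, F)) : nn W 0 0 + nn W 1 1 = 0 := by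
  rw [nn_eq]
  simp

theorem nn_comm (W : SL(2, F)) : (W : Matrix (Fin 2) (Fin 2) F) * nn W = nn W * W := by
  rw [nn, mul_sub, sub_mul, ← Matrix.SpecialLinearGroup.coe_mul, ← Matrix.SpecialLinearGroup.coe_mul,
    ← Matrix.SpecialLinearGroup.coe_mul, mul_inv_cancel, inv_mul_cancel]

theorem two_smul_coe (W : SL(2, F)) : (2 : F) • (W : Matrix (Fin 2) (Fin 2) F) =
    nn W + (W 0 0 + W 1 1) • (1 : Matrix (Fin 2) (Fin 2) F) := by
  rw [nn_eq]
  ext i j
  fin_cases i <;> fin_cases j <;> simp <;> ring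

theorem not_scalar_of_trace (h2 : (2 : F) ≠ 0) {y : Matrix (Fin 2) (Fin 2) F} (ht : y 0 0 + y 1 1 = 0) (h0 : y ≠ 0) (c : F) :
    y ≠ c • (1 : Matrix (Fin 2) (Fin 2) F) := by
  rintro rfl
  simp at ht
  have h1 : (2 : F) * c = 0 := by linear_combination ht
  rcases mul_eq_zero.1 h1 with h | h
  · exact h2 h
  · rw [h, zero_smul] at h0
    exact h0 rfl

/-- `4 - (trace W)²` is not a square -/
theorem nu_not_sq (hq : Odd (Fintype.card F)) {r : ℕ} (hr : r.Prime) (hr2 : r ≠ 2) (hco : Cop F r)
    (W : SL(2, F)) (hW : W ^ r = 1) (hW1 : W ≠ 1) (c : F) : nu W ≠ c ^ 2 := by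
  intro hc
  have h2 := two_ne (F := F) hq
  have hN := nn_mul W
  by_cases h0 : c = 0
  · rw [h0, zero_pow two_ne_zero] at hc
    rw [hc, neg_zero, zero_smul] at hN
    have hq1 : 1 < Fintype.card F := Fintype.one_lt_card
    -- `W ^ q` is a scalar
    obtain ⟨p, hp⟩ := CharP.exists F
    have hpp : Fact p.Prime := ⟨CharP.char_is_prime F p⟩
    obtain ⟨n, -, hn⟩ := FiniteField.card F p
    have h3 : ((2 : F) • (W : Matrix (Fin 2) (Fin 2) F)) ^ Fintype.card F =
        (nn W) ^ Fintype.card F + ((W 0 0 + W 1 1) • (1 : Matrix (Fin 2) (Fin 2) F)) ^ Fintype.card F := by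
      rw [two_smul_coe, hn]
      exact add_pow_char_pow_of_commute p n ((Commute.one_right _).smul_right _)
    have h4 : (nn W) ^ Fintype.card F = 0 := by
      obtain ⟨k, hk⟩ : ∃ k, Fintype.card F = 2 + k := ⟨Fintype.card F - 2, by omega⟩
      rw [hk, pow_add, sq, hN, zero_mul]
    rw [h4, zero_add, smul_pow, smul_pow, one_pow, FiniteField.pow_card, FiniteField.pow_card] at h3
    have h5 : (2 : F) • ((W ^ Fintype.card F : SL(2, F)) : Matrix (Fin 2) (Fin 2) F) =
        (W 0 0 + W 1 1) • (1 : Matrix (Fin 2) (Fin 2) F) := by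
      rw [Matrix.SpecialLinearGroup.coe_pow]
      exact h3
    have h6 : ((W ^ (Fintype.card F * 2) : SL(2, F)) : Matrix (Fin 2) (Fin 2) F) = 1 := by
      have h7 : ((2 : F) * 2) • ((W ^ (Fintype.card F * 2) : SL(2, F)) : Matrix (Fin 2) (Fin 2) F) =
          ((2 : F) * 2) • (1 : Matrix (Fin 2) (Fin 2) F) := by
        rw [pow_mul, sq, Matrix.SpecialLinearGroup.coe_mul, ← smul_mul_smul_comm, h5, smul_mul_smul_comm, one_mul]
        congr 1
        have h8 : (4 : F) - (W 0 0 + W 1 1) ^ 2 = 0 := hc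
        linear_combination -h8
      have h8 : (2 : F) * 2 ≠ 0 := mul_ne_zero h2 h2
      exact smul_right_injective _ h8 h7
    have h7 : W ^ (Fintype.card F * 2) = 1 := Subtype.ext h6
    have h8 : orderOf W ∣ Nat.gcd r (Fintype.card F * 2) :=
      Nat.dvd_gcd (orderOf_dvd_of_pow_eq_one hW) (orderOf_dvd_of_pow_eq_one h7)
    have h9 : ¬ r ∣ Fintype.card F * 2 := by
      intro h
      rcases hr.dvd_mul.1 h with h | h
      · exact hco.1 h
      · exact hr2 ((Nat.prime_dvd_prime_iff_eq hr Nat.prime_two).1 h)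
    rw [(Nat.Prime.coprime_iff_not_dvd hr).2 h9] at h8
    exact hW1 (orderOf_eq_one_iff.1 (Nat.dvd_one.1 h8))
  · apply hW1
    have hK : (c⁻¹ • nn W) * (c⁻¹ • nn W) = -1 := by
      rw [smul_mul_smul_comm, hN, hc, smul_smul]
      have : c⁻¹ * c⁻¹ * -c ^ 2 = -1 := by field_simp
      rw [this, neg_one_smul]
    refine eq_one_of_commute hq hr hr2 hco (c⁻¹ • nn W) hK ?_ W hW ?_
    · refine not_scalar_of_trace h2 ?_ ?_
      · rw [Matrix.smul_apply, Matrix.smul_apply, ← smul_add, nn_trace, smul_zero]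
      · intro h
        rw [h, zero_mul] at hK
        have := congrFun (congrFun hK 0) 0
        simp at this
    · rw [mul_smul_comm, smul_mul_assoc, nn_comm]

theorem neg_eq_self (h2 : (2 : F) ≠ 0) {X : SL(2, F)} (h : X = -X) : False := by
  have h1 := det_eq X
  have h00 : X 0 0 = -X 0 0 := congrArg (fun Y : SL(2, F) => Y 0 0) h
  have h01 : X 0 1 = -X 0 1 := congrArg (fun Y : SL(2, F) => Y 0 1) h
  have e0 : X 0 0 = 0 := by
    have : (2 : F) * X 0 0 = 0 := by linear_combination h00
    exact (mul_eq_zero.1 this).resolve_left h2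
  have e1 : X 0 1 = 0 := by
    have : (2 : F) * X 0 1 = 0 := by linear_combination h01
    exact (mul_eq_zero.1 this).resolve_left h2
  rw [e0, e1, zero_mul, zero_mul, sub_zero] at h1
  exact zero_ne_one h1

/-- scalars in `SL_2` -/
theorem eq_of_smul_one {X : SL(2, F)} {c : F} (h : (X : Matrix (Fin 2) (Fin 2) F) = c • 1) : X = 1 ∨ X = -1 := by
  have h1 := X.det_coe
  rw [h, Matrix.det_smul, Matrix.det_one, mul_one, Fintype.card_fin] at h1
  have h3 : (c - 1) * (c + 1) = 0 := by linear_combination h1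
  rcases mul_eq_zero.1 h3 with h4 | h4
  · left
    apply Subtype.ext
    rw [h, sub_eq_zero.1 h4, one_smul]
    rfl
  · right
    apply Subtype.ext
    rw [h, eq_neg_of_add_eq_zero_left h4, neg_one_smul]
    rfl

/-- `K² = -1`: not a scalar -/
theorem not_scalar_of_sq (h2 : (2 : F) ≠ 0) {K : SL(2, F)} (hK : K * K = -1) (c : F) :
    (K : Matrix (Fin 2) (Fin 2) F) ≠ c • (1 : Matrix (Fin 2) (Fin 2) F) := by
  intro h
  rcases eq_of_smul_one h with h1 | h1
  · rw [h1, one_mul] at hK
    exact neg_eq_self h2 hK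
  · rw [h1, neg_mul_neg, one_mul] at hK
    exact neg_eq_self h2 hK

theorem coe_sq {K : SL(2, F)} (hK : K * K = -1) :
    (K : Matrix (Fin 2) (Fin 2) F) * K = -1 := by
  rw [← Matrix.SpecialLinearGroup.coe_mul, hK]
  rfl

/-- `T` inverts `W`: anticommutes with the trace zero part -/
theorem anti {W T : SL(2, F)} (hTW : T⁻¹ * W * T = W⁻¹) :
    nn W * (T : Matrix (Fin 2) (Fin 2) F) = -((T : Matrix (Fin 2) (Fin 2) F) * nn W) := by
  have h1 : W * T = T * W⁻¹ := by
    rw [← hTW]; group
  have h2 : W⁻¹ * T = T * W := by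
    have h3 : (T⁻¹ * W * T)⁻¹ = W := by rw [hTW, inv_inv]
    calc W⁻¹ * T = T * (T⁻¹ * W * T)⁻¹ := by group
      _ = T * W := by rw [h3]
  have h1' := congrArg (fun Y : SL(2, F) => (Y : Matrix (Fin 2) (Fin 2) F)) h1
  have h2' := congrArg (fun Y : SL(2, F) => (Y : Matrix (Fin 2) (Fin 2) F)) h2
  simp only [Matrix.SpecialLinearGroup.coe_mul] at h1' h2'
  rw [nn, sub_mul, mul_sub, h1', h2', neg_sub]

/-- **The fixed points.** -/
theorem fixed (h2 : (2 : F) ≠ 0) {W T K : SL(2, F)} (hnu : ∀ c : F, nu W ≠ c ^ 2) (hT : T * T = -1)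
    (hTW : T⁻¹ * W * T = W⁻¹)
    (hKT : (K : Matrix (Fin 2) (Fin 2) F) * T = T * K ∨ (K : Matrix (Fin 2) (Fin 2) F) * T = -(T * K))
    (hKN : (K : Matrix (Fin 2) (Fin 2) F) * nn W = nn W * K ∨ (K : Matrix (Fin 2) (Fin 2) F) * nn W = -(nn W * K)) :
    K = 1 ∨ K = -1 ∨ K = T ∨ K = -T := by
  have hNT := anti hTW
  have hTT := coe_sq hT
  set N := nn W with hN
  set t : Matrix (Fin 2) (Fin 2) F := (T : Matrix (Fin 2) (Fin 2) F) with ht
  have hNN : N * N = (-nu W) • (1 : Matrix (Fin 2) (Fin 2) F) := nn_mul W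
  have hnu0 : nu W ≠ 0 := by
    have := hnu 0
    rwa [zero_pow two_ne_zero] at this
  have hN0 : N ≠ 0 := by
    intro h
    have h1 := nn_det W
    rw [← hN, h, Matrix.det_zero] at h1
    exact hnu0 h1.symm
  have hNs := not_scalar_of_trace h2 (nn_trace W) hN0
  have hNT0 : N * t ≠ 0 := by
    intro h
    have h1 : (N * t).det = nu W * 1 := by rw [Matrix.det_mul, hN, nn_det, ht, T.det_coe]
    rw [h, Matrix.det_zero, mul_one] at h1
    exact hnu0 h1.symm
  have ht0 : t ≠ 0 := by
    rintro h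
    rw [h, mul_zero] at hNT0
    exact hNT0 rfl
  -- determinant of multiples of `N`
  have hdet : ∀ α : F, α ^ 2 * nu W = 1 → False := by
    intro α h
    have hα : α ≠ 0 := by
      rintro rfl
      rw [zero_pow two_ne_zero, zero_mul] at h
      exact zero_ne_one h
    apply hnu α⁻¹
    field_simp
    linear_combination h
  have two_smul_zero : ∀ (α : F) (M : Matrix (Fin 2) (Fin 2) F), M ≠ 0 → (2 * α) • M = 0 → α = 0 := by
    intro α M hM h
    rcases smul_eq_zero.1 h with h1 | h1
    · exact (mul_eq_zero.1 h1).resolve_left h2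
    · exact absurd h1 hM
  rcases hKN with hKN | hKN
  · obtain ⟨α, β, hK⟩ := comm_two hNs hKN
    rcases hKT with hKT | hKT
    · -- commutes with `T`
      have h1 : (2 * α) • (N * t) = 0 := by
        rw [hK, add_mul, mul_add, smul_mul_assoc, mul_smul_comm, smul_mul_assoc, mul_smul_comm, one_mul,
          mul_one, add_left_inj] at hKT
        have h3 : t * N = -(N * t) := by rw [hNT, neg_neg]
        rw [h3, smul_neg] at hKT
        rw [two_mul, add_smul]
        nth_rewrite 1 [hKT]
        rw [neg_add_cancel]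
      have h3 := two_smul_zero α _ hNT0 h1
      rw [h3, zero_smul, zero_add] at hK
      rcases eq_of_smul_one hK with h | h
      · exact Or.inl h
      · exact Or.inr (Or.inl h)
    · exfalso
      have h1 : (2 * β) • t = 0 := by
        rw [hK, add_mul, mul_add, smul_mul_assoc, mul_smul_comm, smul_mul_assoc, mul_smul_comm, one_mul,
          mul_one, hNT, neg_add, smul_neg, add_right_inj] at hKT
        rw [two_mul, add_smul]
        nth_rewrite 1 [hKT]
        rw [neg_add_cancel]
      have h3 := two_smul_zero β _ ht0 h1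
      rw [h3, zero_smul, add_zero] at hK
      have h4 := K.det_coe
      rw [hK, Matrix.det_smul, Fintype.card_fin] at h4
      exact hdet α (by rw [← nn_det W]; exact h4)
  · -- `K T` commutes with `N`
    have hc : ((K : Matrix (Fin 2) (Fin 2) F) * t) * N = N * ((K : Matrix (Fin 2) (Fin 2) F) * t) := by
      have h3 : t * N = -(N * t) := by rw [hNT, neg_neg]
      rw [mul_assoc, h3, mul_neg, ← mul_assoc, hKN, neg_mul, neg_neg, mul_assoc]
    obtain ⟨α, β, hK'⟩ := comm_two hNs hc
    -- `K = - (α N + β) T`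
    have hK : (K : Matrix (Fin 2) (Fin 2) F) = -(α • (N * t) + β • t) := by
      have h3 : (K : Matrix (Fin 2) (Fin 2) F) = -((K : Matrix (Fin 2) (Fin 2) F) * t * t) := by
        rw [mul_assoc, hTT, mul_neg, mul_one, neg_neg]
      rw [h3, hK', add_mul, smul_mul_assoc, smul_mul_assoc, one_mul]
    have hT' : t * (N * t) = N := by
      rw [← mul_assoc]
      have h3 : t * N = -(N * t) := by rw [hNT, neg_neg]
      rw [h3, neg_mul, mul_assoc, hTT, mul_neg, mul_one, neg_neg]
    have htK : t * (K : Matrix (Fin 2) (Fin 2) F) = -(α • N) + β • (1 : Matrix (Fin 2) (Fin 2) F) := by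
      rw [hK, mul_neg, mul_add, mul_smul_comm, mul_smul_comm, hT', hTT, smul_neg, neg_add, neg_neg]
    rcases hKT with hKT | hKT
    · have h1 : (2 * α) • N = 0 := by
        rw [hK', htK, add_left_inj] at hKT
        rw [two_mul, add_smul]
        nth_rewrite 1 [hKT]
        rw [neg_add_cancel]
      have h3 := two_smul_zero α _ hN0 h1
      rw [h3, zero_smul, zero_add] at hK
      have h4 := K.det_coe
      rw [hK, Matrix.det_neg, Fintype.card_fin, Matrix.det_smul, Fintype.card_fin, ht, T.det_coe] at h4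
      have h5 : (β - 1) * (β + 1) = 0 := by linear_combination h4
      rcases mul_eq_zero.1 h5 with h6 | h6
      · right; right; right
        apply Subtype.ext
        rw [hK, sub_eq_zero.1 h6, one_smul]
        rfl
      · right; right; left
        apply Subtype.ext
        rw [hK, eq_neg_of_add_eq_zero_left h6, neg_one_smul, neg_neg]
    · exfalso
      have h1 : (2 * β) • (1 : Matrix (Fin 2) (Fin 2) F) = 0 := by
        rw [hK', htK, neg_add, neg_neg, add_right_inj] at hKT
        rw [two_mul, add_smul]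
        nth_rewrite 1 [hKT]
        rw [neg_add_cancel]
      have h3 := two_smul_zero β _ one_ne_zero h1
      rw [h3, zero_smul, add_zero] at hK
      have h4 := K.det_coe
      rw [hK, Matrix.det_neg, Fintype.card_fin, Matrix.det_smul, Fintype.card_fin, Matrix.det_mul, ht,
        T.det_coe] at h4
      exact hdet α (by rw [← nn_det W]; linear_combination h4)

/-- conjugation by an invertible matrix -/
def cj (N : GL (Fin 2) F) : SL(2, F) →* SL(2, F) where
  toFun X := ⟨(N : Matrix (Fin 2) (Fin 2) F) * X * ((N⁻¹ : GL (Fin 2) F) : Matrix (Fin 2) (Fin 2) F), by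
    rw [Matrix.det_mul, Matrix.det_mul, X.det_coe, mul_one, ← Matrix.det_mul, ← Units.val_mul, mul_inv_cancel,
      Units.val_one, Matrix.det_one]⟩
  map_one' := by
    apply Subtype.ext
    show (N : Matrix (Fin 2) (Fin 2) F) * (1 : Matrix (Fin 2) (Fin 2) F) *
      ((N⁻¹ : GL (Fin 2) F) : Matrix (Fin 2) (Fin 2) F) = 1
    rw [mul_one, ← Units.val_mul, mul_inv_cancel, Units.val_one]
  map_mul' X Y := by
    apply Subtype.ext
    show (N : Matrix (Fin 2) (Fin 2) F) * ((X : Matrix (Fin 2) (Fin 2) F) * Y) *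
      ((N⁻¹ : GL (Fin 2) F) : Matrix (Fin 2) (Fin 2) F) =
        (N : Matrix (Fin 2) (Fin 2) F) * X * ((N⁻¹ : GL (Fin 2) F) : Matrix (Fin 2) (Fin 2) F) *
        ((N : Matrix (Fin 2) (Fin 2) F) * Y * ((N⁻¹ : GL (Fin 2) F) : Matrix (Fin 2) (Fin 2) F))
    have h1 : ((N⁻¹ : GL (Fin 2) F) : Matrix (Fin 2) (Fin 2) F) * (N : Matrix (Fin 2) (Fin 2) F) = 1 := by
      rw [← Units.val_mul, inv_mul_cancel, Units.val_one]
    calc _ = (N : Matrix (Fin 2) (Fin 2) F) * X * 1 * Y * ((N⁻¹ : GL (Fin 2) F) : Matrix (Fin 2) (Fin 2) F) := by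
          simp only [mul_assoc, mul_one]
      _ = _ := by rw [← h1]; simp only [mul_assoc]

theorem cj_coe (N : GL (Fin 2) F) (X : SL(2, F)) : ((cj N X : SL(2, F)) : Matrix (Fin 2) (Fin 2) F) =
    (N : Matrix (Fin 2) (Fin 2) F) * X * ((N⁻¹ : GL (Fin 2) F) : Matrix (Fin 2) (Fin 2) F) := rfl

theorem cj_neg (N : GL (Fin 2) F) (X : SL(2, F)) : cj N (-X) = -cj N X := by
  apply Subtype.ext
  show (N : Matrix (Fin 2) (Fin 2) F) * (-(X : Matrix (Fin 2) (Fin 2) F)) *
      ((N⁻¹ : GL (Fin 2) F) : Matrix (Fin 2) (Fin 2) F) = -((N : Matrix (Fin 2) (Fin 2) F) * X *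
      ((N⁻¹ : GL (Fin 2) F) : Matrix (Fin 2) (Fin 2) F))
  rw [mul_neg, neg_mul]

/-- the induced automorphism of `PSL_2` -/
theorem exists_aut (N : GL (Fin 2) F) : ∃ f : ProjectiveSpecialLinearGroup (Fin 2) F →*
    ProjectiveSpecialLinearGroup (Fin 2) F, ∀ X : SL(2, F), f (pr F X) = pr F (cj N X) := by
  refine ⟨QuotientGroup.map _ _ (cj N) ?_, fun X => rfl⟩
  intro X hX
  have h1 : pr F X = 1 := (QuotientGroup.eq_one_iff X).2 hX
  rw [Subgroup.mem_comap]
  apply (QuotientGroup.eq_one_iff (cj N X)).1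
  change pr F (cj N X) = 1
  rcases (pr_eq_one_iff X).1 h1 with h | h
  · rw [h, map_one, map_one]
  · rw [h, cj_neg, map_one, pr_eq_one_iff]
    exact Or.inr rfl

theorem pr_neg (X : SL(2, F)) : pr F (-X) = pr F X := (pr_eq_iff _ _).2 (Or.inr rfl)

theorem coe_neg (X : SL(2, F)) : ((-X : SL(2, F)) : Matrix (Fin 2) (Fin 2) F) = -(X : Matrix (Fin 2) (Fin 2) F) := rfl

/-- a lift of order `r` -/
theorem exists_lift {r : ℕ} (hr : Odd r) {x : ProjectiveSpecialLinearGroup (Fin 2) F} (hx : x ^ r = 1) :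
    ∃ X : SL(2, F), pr F X = x ∧ X ^ r = 1 := by
  obtain ⟨X, rfl⟩ := pr_surjective F x
  rw [← map_pow, pr_eq_one_iff] at hx
  rcases hx with h | h
  · exact ⟨X, rfl, h⟩
  · exact ⟨-X, pr_neg X, by rw [hr.neg_pow, h, neg_neg]⟩

/-- an involution lifts to an element of order 4 -/
theorem sq_eq_neg_one (h2 : (2 : F) ≠ 0) {K : SL(2, F)} (hK : pr F K * pr F K = 1) (h1 : pr F K ≠ 1) :
    K * K = -1 := by
  rw [← map_mul, pr_eq_one_iff] at hK
  rcases hK with h | h
  · exfalso
    apply h1
    have h3 : K = K⁻¹ := eq_inv_of_mul_eq_one_left h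
    have h4 := congrArg (fun Y : SL(2, F) => (Y : Matrix (Fin 2) (Fin 2) F)) h3
    have h5 : nn K = 0 := by rw [nn]; exact sub_eq_zero.2 h4
    rw [nn_eq] at h5
    have e00 := congrFun (congrFun h5 0) 0
    have e01 := congrFun (congrFun h5 0) 1
    have e10 := congrFun (congrFun h5 1) 0
    simp at e00 e01 e10
    have e01' := e01.resolve_left h2
    have e10' := e10.resolve_left h2
    rw [pr_eq_one_iff]
    apply eq_of_smul_one (c := K 0 0)
    ext i j
    fin_cases i <;> fin_cases j
    · simp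
    · simpa using e01'
    · simpa using e10'
    · simp
      exact (sub_eq_zero.1 e00).symm
  · exact h

theorem no_two_r (hq : Odd (Fintype.card F)) {r : ℕ} (hr : r.Prime) (hr2 : r ≠ 2) (hco : Cop F r)
    (g : ProjectiveSpecialLinearGroup (Fin 2) F) : orderOf g ≠ 2 * r := by
  intro hg
  have h2 := two_ne (F := F) hq
  have hro := hr.odd_of_ne_two hr2
  have hk : orderOf (g ^ r) = 2 := by
    rw [orderOf_pow, hg, Nat.gcd_eq_right (Dvd.intro_left _ rfl), Nat.mul_div_cancel _ hr.pos]
  have hx : orderOf (g ^ 2) = r := by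
    rw [orderOf_pow, hg, Nat.gcd_eq_right (Dvd.intro _ rfl), Nat.mul_div_cancel_left _ (by norm_num)]
  obtain ⟨K, hK⟩ := pr_surjective F (g ^ r)
  obtain ⟨X, hX, hXr⟩ := exists_lift hro (x := g ^ 2) (by rw [← hx, pow_orderOf_eq_one])
  have hKK : K * K = -1 := by
    apply sq_eq_neg_one h2
    · rw [hK, ← sq]
      exact orderOf_dvd_iff_pow_eq_one.1 hk.dvd
    · rw [hK]
      intro h
      rw [h, orderOf_one] at hk
      norm_num at hk
  have hc : pr F (X * K) = pr F (K * X) := by
    rw [map_mul, map_mul, hX, hK, ← pow_add, ← pow_add, add_comm]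
  have hX1 : X = 1 := by
    have hc' : X * K = K * X := by
      rcases (pr_eq_iff _ _).1 hc with h | h
      · exact h
      · exfalso
        -- `K X = - X K`
        have h3 : ∀ j : ℕ, Odd j → X ^ j * K = -(K * X ^ j) := by
          have h4 : ∀ j : ℕ, (Odd j → X ^ j * K = -(K * X ^ j)) ∧ (Even j → X ^ j * K = K * X ^ j) := by
            intro j
            induction j with
            | zero => exact ⟨fun h => by simp at h, fun _ => by simp⟩
            | succ j ih =>
              constructor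
              · intro hj
                have : Even j := by
                  rcases Nat.even_or_odd j with h5 | h5
                  · exact h5
                  · exact absurd hj (Nat.not_odd_iff_even.2 h5.add_one)
                rw [pow_succ, mul_assoc, h, mul_neg, ← mul_assoc, ih.2 this, mul_assoc]
              · intro hj
                have : Odd j := by
                  rcases Nat.even_or_odd j with h5 | h5
                  · exact absurd hj (Nat.not_even_iff_odd.2 h5.add_one)
                  · exact h5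
                rw [pow_succ, mul_assoc, h, mul_neg, ← mul_assoc, ih.1 this, neg_mul, neg_neg, mul_assoc]
          exact fun j => (h4 j).1
        have h5 := h3 r hro
        rw [hXr, one_mul, mul_one] at h5
        exact neg_eq_self h2 h5
    refine eq_one_of_commute hq hr hr2 hco K (coe_sq hKK) (not_scalar_of_sq h2 hKK) X hXr ?_
    have := congrArg (fun Y : SL(2, F) => (Y : Matrix (Fin 2) (Fin 2) F)) hc'
    simpa using this
  rw [hX1, map_one] at hX
  rw [← hX, orderOf_one] at hx
  exact hr.one_lt.ne hx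

/-- **The criterion.** -/
theorem nb_of (hq : Odd (Fintype.card F)) {r : ℕ} (hr : r.Prime) (hr2 : r ≠ 2) (hco : Cop F r)
    (W T : SL(2, F)) (hW : W ^ r = 1) (hW1 : W ≠ 1) (hT : T * T = -1) (hTW : T⁻¹ * W * T = W⁻¹) :
    NB (ProjectiveSpecialLinearGroup (Fin 2) F) := by
  have h2 := two_ne (F := F) hq
  have hnu := nu_not_sq hq hr hr2 hco W hW hW1
  have hro := hr.odd_of_ne_two hr2
  have hfin : Finite (ProjectiveSpecialLinearGroup (Fin 2) F) := inferInstance
  set w := pr F W with hw
  set t := pr F T with ht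
  have htt : t * t = 1 := by
    rw [ht, ← map_mul, hT, pr_eq_one_iff]
    exact Or.inr rfl
  have ht1 : t ≠ 1 := by
    rw [ht, Ne, pr_eq_one_iff]
    rintro (h | h)
    · rw [h, one_mul] at hT
      exact neg_eq_self h2 hT
    · rw [h, neg_mul_neg, one_mul] at hT
      exact neg_eq_self h2 hT
  have htinv : t⁻¹ = t := inv_eq_of_mul_eq_one_right htt
  have htw : t * w * t = w⁻¹ := by
    have h3 := congrArg (pr F) hTW
    rw [map_mul, map_mul, map_inv, map_inv, ← ht, ← hw, htinv] at h3
    exact h3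
  have hwr : orderOf w = r := by
    have h3 : w ^ r = 1 := by rw [hw, ← map_pow, hW, map_one]
    rcases (Nat.dvd_prime hr).1 (orderOf_dvd_of_pow_eq_one h3) with h | h
    · exfalso
      rw [orderOf_eq_one_iff, hw, pr_eq_one_iff] at h
      rcases h with h | h
      · exact hW1 h
      · rw [h, hro.neg_one_pow] at hW
        exact neg_eq_self h2 hW.symm
    · exact h
  -- the outer involution
  have hunit : IsUnit (nn W) := by
    rw [Matrix.isUnit_iff_isUnit_det, nn_det, isUnit_iff_ne_zero]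
    have := hnu 0
    rwa [zero_pow two_ne_zero] at this
  obtain ⟨N, hN⟩ := hunit
  obtain ⟨f, hf⟩ := exists_aut N
  have hNi : ((N⁻¹ : GL (Fin 2) F) : Matrix (Fin 2) (Fin 2) F) * (N : Matrix (Fin 2) (Fin 2) F) = 1 := by
    rw [← Units.val_mul, inv_mul_cancel, Units.val_one]
  have hNi' : (N : Matrix (Fin 2) (Fin 2) F) * ((N⁻¹ : GL (Fin 2) F) : Matrix (Fin 2) (Fin 2) F) = 1 := by
    rw [← Units.val_mul, mul_inv_cancel, Units.val_one]
  have hff : ∀ k, f (f k) = k := by
    intro k
    obtain ⟨K, rfl⟩ := pr_surjective F k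
    rw [hf, hf]
    congr 1
    apply Subtype.ext
    rw [cj_coe, cj_coe]
    have h3 : (N : Matrix (Fin 2) (Fin 2) F) * N = (-nu W) • (1 : Matrix (Fin 2) (Fin 2) F) := by
      rw [hN]; exact nn_mul W
    calc (N : Matrix (Fin 2) (Fin 2) F) * ((N : Matrix (Fin 2) (Fin 2) F) * K *
          ((N⁻¹ : GL (Fin 2) F) : Matrix (Fin 2) (Fin 2) F)) * ((N⁻¹ : GL (Fin 2) F) : Matrix (Fin 2) (Fin 2) F)
        = ((N : Matrix (Fin 2) (Fin 2) F) * N) * K * ((N⁻¹ : GL (Fin 2) F) : Matrix (Fin 2) (Fin 2) F) *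
          ((N⁻¹ : GL (Fin 2) F) : Matrix (Fin 2) (Fin 2) F) := by simp only [mul_assoc]
      _ = K * ((N : Matrix (Fin 2) (Fin 2) F) * N) * ((N⁻¹ : GL (Fin 2) F) : Matrix (Fin 2) (Fin 2) F) *
          ((N⁻¹ : GL (Fin 2) F) : Matrix (Fin 2) (Fin 2) F) := by
            rw [h3, smul_mul_assoc, one_mul, mul_smul_comm, mul_one]
      _ = K * ((N : Matrix (Fin 2) (Fin 2) F) * (N * ((N⁻¹ : GL (Fin 2) F) : Matrix (Fin 2) (Fin 2) F)) *
          ((N⁻¹ : GL (Fin 2) F) : Matrix (Fin 2) (Fin 2) F)) := by simp only [mul_assoc]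
      _ = K := by rw [hNi', mul_one, hNi', mul_one]
  have hfi : Function.Injective f := fun a b h => by rw [← hff a, h, hff b]
  have hfw : f w = w := by
    rw [hw, hf]
    congr 1
    apply Subtype.ext
    rw [cj_coe]
    have h3 := nn_comm W
    rw [← hN] at h3
    rw [← h3, mul_assoc, hNi', mul_one]
  have hft : f t = t := by
    rw [ht, hf, pr_eq_iff]
    right
    apply Subtype.ext
    rw [cj_coe, coe_neg]
    have h3 := anti hTW
    rw [← hN] at h3
    rw [h3, neg_mul, mul_assoc, hNi', mul_one]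
  refine NB.of_count hr hr2 (no_two_r hq hr hr2 hco) hwr htt ht1 htw ?_
  have p1 : ∀ k, k * k = 1 → f k * f k = 1 := fun k hk => by rw [← map_mul, hk, map_one]
  have p2 : ∀ k, k * t = t * k → f k * t = t * f k := fun k hk => by
    have h5 := congrArg f hk
    rwa [map_mul, map_mul, hft] at h5
  have p3 : ∀ k, orderOf (k * w) = r → orderOf (f k * w) = r := fun k hk => by
    have h5 := orderOf_injective f hfi (k * w)
    rw [map_mul, hfw] at h5
    rw [h5, hk]
  have h3 := card_modEq_of_involutive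
    (α := {k : ProjectiveSpecialLinearGroup (Fin 2) F // k * k = 1 ∧ k * t = t * k ∧ orderOf (k * w) = r})
    (fun k => ⟨f k.1, p1 _ k.2.1, p2 _ k.2.2.1, p3 _ k.2.2.2⟩) (fun k => Subtype.ext (hff k.1))
  have h4 : Nat.card {a : {k : ProjectiveSpecialLinearGroup (Fin 2) F // k * k = 1 ∧ k * t = t * k ∧
      orderOf (k * w) = r} // (⟨f a.1, p1 _ a.2.1, p2 _ a.2.2.1, p3 _ a.2.2.2⟩ :
      {k : ProjectiveSpecialLinearGroup (Fin 2) F // k * k = 1 ∧ k * t = t * k ∧
      orderOf (k * w) = r}) = a} = 1 := by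
    rw [Nat.card_eq_one_iff_unique]
    constructor
    · -- fixed points are trivial
      have h5 : ∀ k : ProjectiveSpecialLinearGroup (Fin 2) F, k * t = t * k → orderOf (k * w) = r → f k = k →
          k = 1 := by
        intro k hkt hkw hfk
        obtain ⟨K, rfl⟩ := pr_surjective F k
        have h6 : K = 1 ∨ K = -1 ∨ K = T ∨ K = -T := by
          apply fixed h2 hnu hT hTW
          · rw [ht, ← map_mul, ← map_mul, pr_eq_iff] at hkt
            rcases hkt with h | h
            · left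
              have := congrArg (fun Y : SL(2, F) => (Y : Matrix (Fin 2) (Fin 2) F)) h
              simpa using this
            · right
              have := congrArg (fun Y : SL(2, F) => (Y : Matrix (Fin 2) (Fin 2) F)) h
              simpa using this
          · rw [hf, pr_eq_iff] at hfk
            rcases hfk with h | h
            · left
              have h7 := congrArg (fun Y : SL(2, F) => (Y : Matrix (Fin 2) (Fin 2) F)) h
              simp only [cj_coe] at h7
              rw [← hN]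
              nth_rewrite 1 [← h7]
              rw [mul_assoc, hNi, mul_one]
            · right
              have h7 := congrArg (fun Y : SL(2, F) => (Y : Matrix (Fin 2) (Fin 2) F)) h
              simp only [cj_coe, coe_neg] at h7
              rw [← hN, ← neg_eq_iff_eq_neg, ← neg_mul]
              nth_rewrite 1 [← h7]
              rw [mul_assoc, hNi, mul_one]
        rcases h6 with h | h | h | h
        · rw [h, map_one]
        · rw [h, pr_neg, map_one]
        · exfalso
          have h7 : (t * w) ^ 2 = 1 := by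
            rw [sq]
            calc t * w * (t * w) = (t * w * t) * w := by simp only [mul_assoc]
              _ = 1 := by rw [htw, inv_mul_cancel]
          rw [h, ← ht] at hkw
          have h8 := orderOf_dvd_of_pow_eq_one h7
          rw [hkw] at h8
          exact hr2 ((Nat.prime_dvd_prime_iff_eq hr Nat.prime_two).1 h8)
        · exfalso
          have h7 : (t * w) ^ 2 = 1 := by
            rw [sq]
            calc t * w * (t * w) = (t * w * t) * w := by simp only [mul_assoc]
              _ = 1 := by rw [htw, inv_mul_cancel]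
          rw [h, pr_neg, ← ht] at hkw
          have h8 := orderOf_dvd_of_pow_eq_one h7
          rw [hkw] at h8
          exact hr2 ((Nat.prime_dvd_prime_iff_eq hr Nat.prime_two).1 h8)
      constructor
      intro a b
      apply Subtype.ext
      apply Subtype.ext
      rw [h5 a.1.1 a.1.2.2.1 a.1.2.2.2 (congrArg Subtype.val a.2),
        h5 b.1.1 b.1.2.2.1 b.1.2.2.2 (congrArg Subtype.val b.2)]
    · refine ⟨⟨⟨1, by rw [mul_one], by rw [one_mul, mul_one], by rw [one_mul]; exact hwr⟩, ?_⟩⟩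
      apply Subtype.ext
      exact map_one f
  rw [h4] at h3
  rw [Nat.odd_iff]
  exact h3

/-- the split torus -/
def dia : Fˣ →* SL(2, F) where
  toFun u := ⟨!![(u : F), 0; 0, ((u⁻¹ : Fˣ) : F)], by
    rw [Matrix.det_fin_two_of, ← Units.val_mul, mul_inv_cancel, Units.val_one, mul_zero, sub_zero]⟩
  map_one' := by
    apply Subtype.ext
    show !![((1 : Fˣ) : F), 0; 0, (((1 : Fˣ)⁻¹ : Fˣ) : F)] = (1 : Matrix (Fin 2) (Fin 2) F)
    rw [inv_one, Units.val_one, Matrix.one_fin_two]
  map_mul' u v := by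
    apply Subtype.ext
    show !![((u * v : Fˣ) : F), 0; 0, (((u * v)⁻¹ : Fˣ) : F)] =
      (!![(u : F), 0; 0, ((u⁻¹ : Fˣ) : F)] : Matrix (Fin 2) (Fin 2) F) * !![(v : F), 0; 0, ((v⁻¹ : Fˣ) : F)]
    rw [Matrix.mul_fin_two, _root_.mul_inv_rev, Units.val_mul, Units.val_mul]
    simp only [mul_zero, zero_mul, add_zero, zero_add]
    rw [mul_comm ((v⁻¹ : Fˣ) : F)]

/-- the Weyl element -/
def wey : SL(2, F) := ⟨!![0, 1; -1, 0], by rw [Matrix.det_fin_two_of]; ring⟩

theorem wey_sq : (wey : SL(2, F)) * wey = -1 := by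
  apply Subtype.ext
  show (!![0, 1; -1, 0] : Matrix (Fin 2) (Fin 2) F) * !![0, 1; -1, 0] = -1
  rw [Matrix.mul_fin_two]
  ext i j
  fin_cases i <;> fin_cases j <;> simp

theorem dia_wey (u : Fˣ) : dia u * wey = wey * (dia u)⁻¹ := by
  rw [← map_inv]
  apply Subtype.ext
  show (!![(u : F), 0; 0, ((u⁻¹ : Fˣ) : F)] : Matrix (Fin 2) (Fin 2) F) * !![0, 1; -1, 0] =
    (!![0, 1; -1, 0] : Matrix (Fin 2) (Fin 2) F) * !![((u⁻¹ : Fˣ) : F), 0; 0, (((u⁻¹)⁻¹ : Fˣ) : F)]
  rw [Matrix.mul_fin_two, Matrix.mul_fin_two, inv_inv]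
  ext i j
  fin_cases i <;> fin_cases j <;> simp

/-- **`PSL_2(q)`, `q > 3` odd, has more than one 2-block.** -/
theorem nb_psl2 (h2 : Odd (Fintype.card F)) (h3 : 3 < Fintype.card F) :
    NB (ProjectiveSpecialLinearGroup (Fin 2) F) := by
  rcases (show Fintype.card F % 4 = 1 ∨ Fintype.card F % 4 = 3 by obtain ⟨k, hk⟩ := h2; omega) with h4 | h4
  · -- the non-split torus
    obtain ⟨a, s, ha, hs, hsa, -⟩ := ClassicalGeometry.NonsplitTorus.exists_torus_TI F
    set r := ((Fintype.card F + 1) / 2).minFac with hr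
    have hrp : r.Prime := Nat.minFac_prime (by omega)
    have hrd : r ∣ (Fintype.card F + 1) / 2 := Nat.minFac_dvd _
    have hr2 : r ≠ 2 := by
      intro h
      rw [h] at hrd
      omega
    have hrq : r ∣ Fintype.card F + 1 := hrd.trans (Nat.div_dvd_of_dvd (by omega))
    have hco : Cop F r := by
      refine ⟨?_, ?_, fun h => by omega⟩
      · intro h
        have h5 : r ∣ 1 := (Nat.dvd_add_right h).1 hrq
        exact hrp.one_lt.ne' (Nat.dvd_one.1 h5)
      · intro _ h
        have h5 := Nat.dvd_sub hrq h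
        rw [show Fintype.card F + 1 - (Fintype.card F - 1) = 2 by omega] at h5
        exact hr2 ((Nat.prime_dvd_prime_iff_eq hrp Nat.prime_two).1 h5)
    have hord : orderOf (a ^ ((Fintype.card F + 1) / r)) = r := by
      have h5 := orderOf_pow_orderOf_div (x := a) (n := r) (by rw [ha]; omega) (by rw [ha]; exact hrq)
      rwa [ha] at h5
    refine nb_of h2 hrp hr2 hco (a ^ ((Fintype.card F + 1) / r)) s ?_ ?_ hs ?_
    · exact orderOf_dvd_iff_pow_eq_one.1 hord.dvd
    · intro h
      rw [h, orderOf_one] at hord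
      exact hrp.one_lt.ne hord
    · have h5 : s⁻¹ * a ^ ((Fintype.card F + 1) / r) * s = (s⁻¹ * a * s) ^ ((Fintype.card F + 1) / r) := by
        have := conj_pow (a := s⁻¹) (b := a) (i := (Fintype.card F + 1) / r)
        rw [inv_inv] at this
        exact this.symm
      rw [h5, hsa, inv_pow]
  · -- the split torus
    obtain ⟨y, hy⟩ := IsCyclic.exists_generator (α := Fˣ)
    have hordy : orderOf y = Fintype.card F - 1 := by
      rw [orderOf_eq_card_of_forall_mem_zpowers hy, Nat.card_units, Nat.card_eq_fintype_card]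
    set r := ((Fintype.card F - 1) / 2).minFac with hr
    have hrp : r.Prime := Nat.minFac_prime (by omega)
    have hrd : r ∣ (Fintype.card F - 1) / 2 := Nat.minFac_dvd _
    have hr2 : r ≠ 2 := by
      intro h
      rw [h] at hrd
      omega
    have hrq : r ∣ Fintype.card F - 1 := hrd.trans (Nat.div_dvd_of_dvd (by omega))
    have hco : Cop F r := by
      refine ⟨?_, fun h => by omega, ?_⟩
      · intro h
        have h5 := Nat.dvd_sub h hrq
        rw [show Fintype.card F - (Fintype.card F - 1) = 1 by omega] at h5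
        exact hrp.one_lt.ne' (Nat.dvd_one.1 h5)
      · intro _ h
        have h5 := Nat.dvd_sub h hrq
        rw [show Fintype.card F + 1 - (Fintype.card F - 1) = 2 by omega] at h5
        exact hr2 ((Nat.prime_dvd_prime_iff_eq hrp Nat.prime_two).1 h5)
    have hord : orderOf (y ^ ((Fintype.card F - 1) / r)) = r := by
      have h5 := orderOf_pow_orderOf_div (x := y) (n := r) (by rw [hordy]; omega) (by rw [hordy]; exact hrq)
      rwa [hordy] at h5
    refine nb_of h2 hrp hr2 hco (dia (y ^ ((Fintype.card F - 1) / r))) wey ?_ ?_ wey_sq ?_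
    · rw [← map_pow, orderOf_dvd_iff_pow_eq_one.1 hord.dvd, map_one]
    · intro h
      have h5 := congrArg (fun Y : SL(2, F) => (Y : Matrix (Fin 2) (Fin 2) F) 0 0) h
      have h6 : y ^ ((Fintype.card F - 1) / r) = 1 := by
        have e1 : ((1 : SL(2, F)) : Matrix (Fin 2) (Fin 2) F) 0 0 = 1 := by simp
        exact Units.ext (h5.trans e1)
      rw [h6, orderOf_one] at hord
      exact hrp.one_lt.ne hord
    · rw [mul_assoc, dia_wey, inv_mul_cancel_left]

end Fin

end Cfsg.Agent.H102.NbPslTwo
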