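import Mathlib
import Cfsg.Agent.H101.NilpPerm
import Cfsg.Agent.OddOrderLocal.CNBasic
import Cfsg.Agent.Cit.TwoPF.Cheap

/-!
# Nilpotent subgroups of alternating groups

A nilpotent subgroup of `Perm Ω` of even order is contained in a nilpotent subgroup of `Perm Ω`
with odd permutations.
-/

set_option autoImplicit false
set_option linter.style.haveILetI false

namespace Cfsg.Agent.H102.NilpAlt

open Equiv Equiv.Perm MulAction
open scoped Pointwise

/-- A nilpotent subgroup is the product of a 2-group and of a group of odd order, which commute. -/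
theorem exists_parts {G : Type*} [Group G] [Finite G] (N : Subgroup G) (hN : Group.IsNilpotent N) :
    ∃ P H : Subgroup G, P ≤ N ∧ H ≤ N ∧ IsPGroup 2 P ∧ Odd (Nat.card H) ∧
      (∀ x ∈ P, ∀ y ∈ H, x * y = y * x) ∧ (∀ x ∈ N, ∃ a ∈ P, ∃ b ∈ H, x = a * b) := by
  haveI : Fact (Nat.Prime 2) := ⟨Nat.prime_two⟩
  obtain ⟨P⟩ : Nonempty (Sylow 2 N) := inferInstance
  haveI hPn : (P : Subgroup N).Normal := inferInstance
  have hcop : Nat.Coprime (Nat.card (P : Subgroup N)) (P : Subgroup N).index := P.card_coprime_index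
  obtain ⟨K, hK⟩ := Subgroup.exists_right_complement'_of_coprime hcop
  have hKc : Nat.card K = (P : Subgroup N).index := hK.symm.index_eq_card.symm
  have hKodd : Odd (Nat.card K) := by
    rw [hKc, ← Nat.not_even_iff_odd, even_iff_two_dvd]
    exact P.not_dvd_index
  refine ⟨(P : Subgroup N).map N.subtype, K.map N.subtype, Subgroup.map_subtype_le _,
    Subgroup.map_subtype_le _, P.isPGroup'.map _, ?_, ?_, ?_⟩
  · rwa [Subgroup.card_subtype]
  · rintro _ ⟨x, hx, rfl⟩ _ ⟨y, hy, rfl⟩
    have h1 : (orderOf x).Coprime (orderOf y) := by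
      obtain ⟨k, hk⟩ := (IsPGroup.iff_orderOf.1 P.isPGroup') ⟨x, hx⟩
      rw [Subgroup.orderOf_mk] at hk
      rw [hk]
      apply Nat.Coprime.pow_left
      rw [Nat.coprime_two_left]
      exact Odd.of_dvd_nat hKodd (Subgroup.orderOf_dvd_natCard _ hy)
    exact congrArg Subtype.val (OddOrderLocal.CNBasic.commute_of_coprime_orderOf h1).eq
  · intro x hx
    obtain ⟨⟨a, b⟩, hab⟩ := hK.2 ⟨x, hx⟩
    exact ⟨(a : N), ⟨a, a.2, rfl⟩, (b : N), ⟨b, b.2, rfl⟩, (congrArg Subtype.val hab).symm⟩

/-- Two commuting nilpotent subgroups are contained in a nilpotent subgroup. -/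
theorem exists_nilpotent_sup {G : Type*} [Group G] (S H : Subgroup G) (hS : Group.IsNilpotent S)
    (hH : Group.IsNilpotent H) (hc : ∀ x ∈ S, ∀ y ∈ H, x * y = y * x) :
    ∃ D : Subgroup G, Group.IsNilpotent D ∧ S ≤ D ∧ H ≤ D := by
  let f : S × H →* G := S.subtype.noncommCoprod H.subtype (fun x y => hc x x.2 y y.2)
  refine ⟨f.range, ?_, ?_, ?_⟩
  · exact Group.nilpotent_of_surjective f.rangeRestrict f.rangeRestrict_surjective
  · intro x hx
    exact ⟨(⟨x, hx⟩, 1), mul_one x⟩
  · intro x hx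
    exact ⟨(1, ⟨x, hx⟩), one_mul x⟩

/-- An element of `p`-power order has a conjugate in a given Sylow subgroup. -/
theorem exists_conj_mem_sylow {G : Type*} [Group G] [Finite G] {p : ℕ} [hp : Fact p.Prime]
    (S : Sylow p G) {x : G} {k : ℕ} (hx : x ^ p ^ k = 1) : ∃ g : G, g * x * g⁻¹ ∈ S := by
  have hP : IsPGroup p (Subgroup.zpowers x) := by
    obtain ⟨j, -, hj⟩ := (Nat.dvd_prime_pow hp.out).1 (orderOf_dvd_of_pow_eq_one hx)
    apply IsPGroup.of_card (n := j)
    rw [Nat.card_zpowers, hj]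
  obtain ⟨Q, hQ⟩ := hP.exists_le_sylow
  obtain ⟨g, hg⟩ := MulAction.exists_smul_eq G Q S
  refine ⟨g, ?_⟩
  rw [← hg]
  have h1 : (MulAut.conj g) • x ∈ (MulAut.conj g) • (Q : Subgroup G) :=
    Subgroup.smul_mem_pointwise_smul x (MulAut.conj g) _ (hQ (Subgroup.mem_zpowers x))
  exact h1

/-- The odd involution commuting with a group of odd order. -/
theorem exists_odd_commuting {Ω : Type*} [Fintype Ω] [DecidableEq Ω] (H : Subgroup (Perm Ω))
    (hH : Odd (Nat.card H)) {z : Perm Ω} (hz : z * z = 1) (hz1 : z ≠ 1)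
    (hc : ∀ h ∈ H, z * h = h * z) :
    ∃ τ : Perm Ω, τ * τ = 1 ∧ sign τ = -1 ∧ ∀ h ∈ H, τ * h = h * τ := by
  classical
  have hzz : ∀ x, z (z x) = x := fun x => by
    have := congrArg (fun σ : Perm Ω => σ x) hz
    exact this
  have hzh : ∀ h ∈ H, ∀ x, z (h x) = h (z x) := fun h hh x => by
    have := congrArg (fun σ : Perm Ω => σ x) (hc h hh)
    exact this
  obtain ⟨ω, hω⟩ : ∃ ω, z ω ≠ ω := by
    by_contra hcon
    push Not at hcon
    exact hz1 (Equiv.ext hcon)
  -- the orbit
  have hX : z ω ∉ orbit H ω := by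
    rintro ⟨⟨h, hh⟩, hhω⟩
    have hhω' : h ω = z ω := hhω
    have h1 : h (h ω) = ω := by
      rw [hhω', ← hzh h hh, hhω', hzz]
    have h2 : ∀ k : ℕ, (h ^ (2 * k)) ω = ω := by
      intro k
      induction k with
      | zero => rfl
      | succ k ih =>
        have : h ^ (2 * (k + 1)) = h ^ (2 * k) * (h * h) := by
          rw [← sq, ← pow_add]
          congr 1
        rw [this]
        show (h ^ (2 * k)) (h (h ω)) = ω
        rw [h1, ih]
    obtain ⟨k, hk⟩ : Odd (orderOf h) := Odd.of_dvd_nat hH (Subgroup.orderOf_dvd_natCard _ hh)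
    have h3 : h ^ (2 * (k + 1)) = h := by
      have : 2 * (k + 1) = orderOf h + 1 := by omega
      rw [this, pow_succ, pow_orderOf_eq_one, one_mul]
    have h4 := h2 (k + 1)
    rw [h3, hhω'] at h4
    exact hω h4
  have hXodd : Odd (Nat.card (orbit H ω)) := by
    have h1 := MulAction.card_orbit_mul_card_stabilizer_eq_card_group H ω
    have h2 : Fintype.card (orbit H ω) ∣ Fintype.card H := ⟨_, h1.symm⟩
    rw [← Nat.card_eq_fintype_card, ← Nat.card_eq_fintype_card] at h2
    exact Odd.of_dvd_nat hH h2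
  set Y : Finset Ω := Finset.univ.filter (fun x => x ∈ orbit H ω ∨ z x ∈ orbit H ω) with hY
  have hYmem : ∀ x, x ∈ Y ↔ x ∈ orbit H ω ∨ z x ∈ orbit H ω := by
    intro x
    simp [hY]
  have hYz : ∀ x, z x ∈ Y ↔ x ∈ Y := by
    intro x
    rw [hYmem, hYmem, hzz]
    exact or_comm
  have horb : ∀ h ∈ H, ∀ x, h x ∈ orbit H ω ↔ x ∈ orbit H ω := by
    intro h hh x
    constructor
    · intro h1
      have h2 := MulAction.mem_orbit_of_mem_orbit (⟨h, hh⟩ : H)⁻¹ h1
      have h3 : (⟨h, hh⟩ : H)⁻¹ • h x = x := inv_smul_smul (⟨h, hh⟩ : H) x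
      rwa [h3] at h2
    · intro h1
      exact MulAction.mem_orbit_of_mem_orbit (⟨h, hh⟩ : H) h1
  have hYh : ∀ h ∈ H, ∀ x, h x ∈ Y ↔ x ∈ Y := by
    intro h hh x
    rw [hYmem, hYmem, hzh h hh, horb h hh, horb h hh]
  let f : Ω → Ω := fun x => if x ∈ Y then z x else x
  have hf1 : ∀ x, x ∈ Y → f x = z x := fun x hx => if_pos hx
  have hf2 : ∀ x, x ∉ Y → f x = x := fun x hx => if_neg hx
  have hf : Function.Involutive f := by
    intro x
    by_cases hx : x ∈ Y
    · rw [hf1 x hx, hf1 _ ((hYz x).2 hx), hzz]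
    · rw [hf2 x hx, hf2 x hx]
  refine ⟨hf.toPerm, ?_, ?_, ?_⟩
  · ext x
    exact hf x
  · have hsq : hf.toPerm * hf.toPerm = 1 := by
      ext x
      exact hf x
    rw [(Cfsg.Agent.Cit.TwoPF.sign_of_sq hsq).1]
    have hzne : ∀ x ∈ Y, z x ≠ x := by
      have key : ∀ x ∈ orbit H ω, z x ≠ x := by
        rintro _ ⟨⟨h, hh⟩, rfl⟩ h1
        have h2 : z (h ω) = h ω := h1
        rw [hzh h hh] at h2
        exact hω (h.injective h2)
      intro x hx
      rcases (hYmem x).1 hx with h1 | h1
      · exact key x h1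
      · intro h2
        rw [h2] at h1
        exact key x h1 h2
    have hsupp : hf.toPerm.support = Y := by
      ext x
      rw [Equiv.Perm.mem_support]
      show f x ≠ x ↔ x ∈ Y
      by_cases hx : x ∈ Y
      · rw [hf1 x hx]
        exact ⟨fun _ => hx, fun _ => hzne x hx⟩
      · rw [hf2 x hx]
        exact ⟨fun h => absurd rfl h, fun h => absurd h hx⟩
    have hcard : Y.card = 2 * Nat.card (orbit H ω) := by
      have h1 : Y = (Finset.univ.filter (fun x => x ∈ orbit H ω)) ∪
          (Finset.univ.filter (fun x => z x ∈ orbit H ω)) := by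
        ext x
        simp [hY]
      have h2 : Disjoint (Finset.univ.filter (fun x => x ∈ orbit H ω))
          (Finset.univ.filter (fun x => z x ∈ orbit H ω)) := by
        rw [Finset.disjoint_left]
        intro x hx hx'
        simp only [Finset.mem_filter, Finset.mem_univ, true_and] at hx hx'
        obtain ⟨⟨h, hh⟩, rfl⟩ := hx
        have h3 : z (h ω) ∈ orbit H ω := hx'
        rw [hzh h hh, horb h hh] at h3
        exact hX h3
      have h3 : (Finset.univ.filter (fun x => x ∈ orbit H ω)).card = Nat.card (orbit H ω) := by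
        rw [← Fintype.card_subtype, ← Nat.card_eq_fintype_card]
      have h4 : (Finset.univ.filter (fun x => z x ∈ orbit H ω)).card =
          (Finset.univ.filter (fun x => x ∈ orbit H ω)).card := by
        apply Finset.card_bij (fun x _ => z x)
        · intro x hx
          simp only [Finset.mem_filter, Finset.mem_univ, true_and] at hx ⊢
          exact hx
        · intro x _ y _ hxy
          exact z.injective hxy
        · intro y hy
          simp only [Finset.mem_filter, Finset.mem_univ, true_and] at hy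
          exact ⟨z y, by simp only [Finset.mem_filter, Finset.mem_univ, true_and]; rwa [hzz], hzz y⟩
      rw [h1, Finset.card_union_of_disjoint h2, h4, h3]
      ring
    rw [hsupp, hcard, Nat.mul_div_cancel_left _ two_pos]
    exact Odd.neg_one_pow hXodd
  · intro h hh
    ext x
    show f (h x) = h (f x)
    by_cases hx : x ∈ Y
    · rw [hf1 x hx, hf1 _ ((hYh h hh x).2 hx), hzh h hh]
    · rw [hf2 x hx, hf2 _ (fun h' => hx ((hYh h hh x).1 h'))]

/-- **Dichotomy.** -/
theorem dichotomy {Ω : Type*} [Fintype Ω] [DecidableEq Ω] (N : Subgroup (Perm Ω))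
    (hN : Group.IsNilpotent N) (hodd : ¬ Odd (Nat.card N)) :
    ∃ D : Subgroup (Perm Ω), Group.IsNilpotent D ∧ N ≤ D ∧ ∃ d ∈ D, sign d = -1 := by
  haveI : Fact (Nat.Prime 2) := ⟨Nat.prime_two⟩
  obtain ⟨P, H, hPN, hHN, hP, hH, hc, hdec⟩ := exists_parts N hN
  have hPC : P ≤ Subgroup.centralizer (H : Set (Perm Ω)) := by
    intro x hx
    rw [Subgroup.mem_centralizer_iff]
    intro y hy
    exact (hc x hx y hy).symm
  set C := Subgroup.centralizer (H : Set (Perm Ω)) with hC
  obtain ⟨S, hS⟩ := (hP.comap_of_injective C.subtype C.subtype_injective :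
    IsPGroup 2 (P.subgroupOf C)).exists_le_sylow
  have hSnil : Group.IsNilpotent ((S : Subgroup C).map C.subtype) :=
    (S.isPGroup'.map C.subtype).isNilpotent
  have hHnil : Group.IsNilpotent H := by
    have : Group.IsNilpotent (H.subgroupOf N) := inferInstance
    exact Group.nilpotent_of_surjective (Subgroup.subgroupOfEquivOfLe hHN).toMonoidHom
      (Subgroup.subgroupOfEquivOfLe hHN).surjective
  obtain ⟨D, hD, hSD, hHD⟩ := exists_nilpotent_sup ((S : Subgroup C).map C.subtype) H hSnil hHnil (by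
    rintro _ ⟨x, -, rfl⟩ y hy
    exact (Subgroup.mem_centralizer_iff.1 x.2 y hy).symm)
  have hPD : P ≤ D := fun x hx => hSD ⟨⟨x, hPC hx⟩, hS hx, rfl⟩
  refine ⟨D, hD, ?_, ?_⟩
  · intro x hx
    obtain ⟨a, ha, b, hb, rfl⟩ := hdec x hx
    exact D.mul_mem (hPD ha) (hHD hb)
  · -- the 2-part is not trivial
    have hP2 : 2 ∣ Nat.card P := by
      by_contra h2
      apply hodd
      have h3 : P = ⊥ := by
        rw [← Subgroup.card_eq_one]
        obtain ⟨k, hk⟩ := (IsPGroup.iff_card (p := 2) (G := P)).1 hP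
        rw [hk] at h2 ⊢
        cases k with
        | zero => rfl
        | succ k => exact absurd (dvd_pow_self 2 (by omega)) h2
      have h4 : N ≤ H := by
        intro x hx
        obtain ⟨a, ha, b, hb, rfl⟩ := hdec x hx
        rw [h3, Subgroup.mem_bot] at ha
        rwa [ha, one_mul]
      rw [le_antisymm h4 hHN]
      exact hH
    obtain ⟨⟨z, hzP⟩, hz⟩ := exists_prime_orderOf_dvd_card' 2 hP2
    rw [Subgroup.orderOf_mk] at hz
    have hz1 : z ≠ 1 := by
      rintro rfl
      rw [orderOf_one] at hz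
      omega
    have hzz : z * z = 1 := by
      have := pow_orderOf_eq_one z
      rwa [hz, sq] at this
    obtain ⟨τ, h1, h2, h3⟩ := exists_odd_commuting H hH hzz hz1 (fun h hh => hc z hzP h hh)
    have hτC : τ ∈ C := by
      rw [hC, Subgroup.mem_centralizer_iff]
      intro y hy
      exact (h3 y hy).symm
    obtain ⟨g, hg⟩ := exists_conj_mem_sylow S (x := (⟨τ, hτC⟩ : C)) (k := 1) (by
      rw [pow_one, sq]
      exact Subtype.ext h1)
    refine ⟨_, hSD ⟨_, hg, rfl⟩, ?_⟩
    show sign ((g : Perm Ω) * τ * (g : Perm Ω)⁻¹) = -1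
    rw [Equiv.Perm.sign_mul, Equiv.Perm.sign_mul, Equiv.Perm.sign_inv,
      mul_comm (sign (g : Perm Ω)), mul_assoc, Int.units_mul_self, mul_one]
    exact h2

end Cfsg.Agent.H102.NilpAlt
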