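import Mathlib
import Cfsg.Agent.H101.NilpPerm

/-!
# Nilpotent permutation groups of odd order
-/

set_option autoImplicit false
set_option linter.style.haveILetI false

namespace Cfsg.Agent.H102.NilpOdd

open Nat MulAction Cfsg.Agent.H101.NilpArith Cfsg.Agent.H101.NilpPerm

universe u v

theorem le_three_pow {k : ℕ} : 2 * k + 1 ≤ 3 ^ k := by
  induction k with
  | zero => simp
  | succ k ih =>
    rw [pow_succ]
    omega

/-- `f m ≤ 3 ^ k` for `m = 2 k + 1`. -/
theorem f_odd_prime_pow {p : ℕ} (hp : p.Prime) (hp2 : p ≠ 2) (a : ℕ) :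
    ∃ k, p ^ a = 2 * k + 1 ∧ f (p ^ a) ≤ 3 ^ k := by
  obtain ⟨j, hj⟩ : Odd p := hp.odd_of_ne_two hp2
  induction a with
  | zero => exact ⟨0, by simp, by simp [f_one]⟩
  | succ a ih =>
    obtain ⟨k, hk, hf⟩ := ih
    refine ⟨k + j * p ^ a, ?_, ?_⟩
    · rw [pow_succ]
      nth_rewrite 2 [hj]
      rw [mul_add, mul_one]
      nth_rewrite 2 [hk]
      ring
    · rw [f_prime_pow_succ hp, pow_add, pow_mul]
      apply Nat.mul_le_mul hf
      apply Nat.pow_le_pow_left
      rw [hj]
      exact le_three_pow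

theorem f_odd {m : ℕ} (hm : Odd m) : ∃ k, m = 2 * k + 1 ∧ f m ≤ 3 ^ k := by
  induction m using Nat.recOnPosPrimePosCoprime with
  | zero => exact absurd hm (by decide)
  | one => exact ⟨0, by simp, by simp [f_one]⟩
  | prime_pow p n hp hn =>
    apply f_odd_prime_pow hp
    rintro rfl
    exact (Nat.not_even_iff_odd.2 hm) (Nat.even_pow.2 ⟨even_two, by omega⟩)
  | coprime a b ha hb hab iha ihb =>
    rw [Nat.odd_mul] at hm
    obtain ⟨k, hk, hfk⟩ := iha hm.1
    obtain ⟨l, hl, hfl⟩ := ihb hm.2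
    refine ⟨k + l + 2 * (k * l), ?_, ?_⟩
    · rw [hk, hl]; ring
    · rw [f_mul hab, pow_add, pow_add]
      calc f a * f b ≤ 3 ^ k * 3 ^ l := Nat.mul_le_mul hfk hfl
        _ ≤ 3 ^ k * 3 ^ l * 3 ^ (2 * (k * l)) := Nat.le_mul_of_pos_right _ (by positivity)

theorem f_prime {p : ℕ} (hp : p.Prime) : f p = p := by
  have h := f_prime_pow_succ hp 0
  simpa [f_one] using h

/-- The bound for nilpotent groups of odd order. -/
def B (n : ℕ) : ℕ :=
  if n = 7 then 9 else if n = 11 then 81 else if n = 13 then 243 else if n = 15 then 729 else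
    3 ^ ((n - 1) / 2)

theorem B_le (n : ℕ) : B n ≤ 3 ^ ((n - 1) / 2) := by
  unfold B
  split_ifs with h1 h2 h3 h4
  · subst h1; norm_num
  · subst h2; norm_num
  · subst h3; norm_num
  · subst h4; norm_num
  · exact le_rfl

theorem f_mul_B_le {m n : ℕ} (hm : Odd m) (hmn : m ≤ n) : f m * B (n - m) ≤ B n := by
  by_cases h16 : 16 ≤ n
  · obtain ⟨k, hk, hf⟩ := f_odd hm
    have hB : B n = 3 ^ ((n - 1) / 2) := by
      unfold B
      rw [if_neg (by omega), if_neg (by omega), if_neg (by omega), if_neg (by omega)]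
    rw [hB]
    calc f m * B (n - m) ≤ 3 ^ k * 3 ^ ((n - m - 1) / 2) := Nat.mul_le_mul hf (B_le _)
      _ = 3 ^ (k + (n - m - 1) / 2) := by rw [pow_add]
      _ ≤ 3 ^ ((n - 1) / 2) := Nat.pow_le_pow_right (by norm_num) (by omega)
  · have hf3 := f_three
    have hf9 := f_nine
    have hf5 : f 5 = 5 := f_prime (by norm_num)
    have hf7 : f 7 = 7 := f_prime (by norm_num)
    have hf11 : f 11 = 11 := f_prime (by norm_num)
    have hf13 : f 13 = 13 := f_prime (by norm_num)
    have hf15 : f 15 = 15 := by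
      have := f_mul (u := 3) (v := 5) (by norm_num)
      rwa [hf3, hf5] at this
    have hf1 := f_one
    have hm15 : m ≤ 15 := by omega
    have : m = 1 ∨ m = 3 ∨ m = 5 ∨ m = 7 ∨ m = 9 ∨ m = 11 ∨ m = 13 ∨ m = 15 := by
      obtain ⟨k, hk⟩ := hm
      omega
    rcases this with rfl | rfl | rfl | rfl | rfl | rfl | rfl | rfl
    · rw [hf1]
      interval_cases n <;> decide
    · rw [hf3]
      interval_cases n <;> decide
    · rw [hf5]
      interval_cases n <;> decide
    · rw [hf7]
      interval_cases n <;> decide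
    · rw [hf9]
      interval_cases n <;> decide
    · rw [hf11]
      interval_cases n <;> decide
    · rw [hf13]
      interval_cases n <;> decide
    · rw [hf15]
      interval_cases n <;> decide

theorem odd_card_orbit {N : Type u} [Group N] [Finite N] (hodd : Odd (Nat.card N)) {Ω : Type v}
    [MulAction N Ω] (a : Ω) : Odd (Nat.card (orbit N a)) := by
  apply Odd.of_dvd_nat hodd
  rw [Nat.card_congr (MulAction.orbitEquivQuotientStabilizer N a)]
  exact Subgroup.index_dvd_card _

theorem index_ker_le_B (N : Type u) [Group N] [Finite N] [hN : Group.IsNilpotent N]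
    (hodd : Odd (Nat.card N)) :
    ∀ (n : ℕ) (Ω : Type v) [Finite Ω] [MulAction N Ω], Nat.card Ω = n →
      (MulAction.toPermHom N Ω).ker.index ≤ B n := by
  intro n
  induction n using Nat.strong_induction_on with
  | _ n ih =>
    intro Ω _ _ hcard
    rcases isEmpty_or_nonempty Ω with hE | ⟨⟨a⟩⟩
    · have : (MulAction.toPermHom N Ω).ker = ⊤ := by
        rw [eq_top_iff]
        intro g _
        rw [MonoidHom.mem_ker]
        exact Subsingleton.elim _ _
      rw [this, Subgroup.index_top]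
      have : n = 0 := by rw [← hcard]; exact Nat.card_of_isEmpty
      subst this
      decide
    · have hfpos : 0 < f (Nat.card (orb N a)) := by
        rcases Nat.eq_zero_or_pos (f (Nat.card (orb N a))) with h0 | h0
        · exfalso
          unfold f at h0
          rw [Finsupp.prod, Finset.prod_eq_zero_iff] at h0
          obtain ⟨p, hp, h⟩ := h0
          exact pow_ne_zero _
            (Nat.prime_of_mem_primeFactors (by simpa using hp)).ne_zero h
        · exact h0
      have h1 : (MulAction.toPermHom N (orb N a)).ker.index ≤ f (Nat.card (orb N a)) :=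
        Nat.le_of_dvd hfpos (index_ker_dvd_f N (orb N a))
      have hadd := card_add_card_compl (orb N a)
      have hpos : 0 < Nat.card (orb N a) := Nat.card_pos
      have h2 := ih (Nat.card ((orb N a)ᶜ : SubMulAction N Ω)) (by omega)
        ((orb N a)ᶜ : SubMulAction N Ω) rfl
      have he : Nat.card ((orb N a)ᶜ : SubMulAction N Ω) = n - Nat.card (orb N a) := by omega
      rw [he] at h2
      calc _ ≤ _ := index_ker_le_mul (orb N a)
        _ ≤ f (Nat.card (orb N a)) * B (n - Nat.card (orb N a)) := Nat.mul_le_mul h1 h2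
        _ ≤ B n := f_mul_B_le (by rw [card_orb]; exact odd_card_orbit hodd a) (by omega)

theorem card_le_B {Ω : Type v} [Finite Ω] (N : Subgroup (Equiv.Perm Ω))
    (hN : Group.IsNilpotent N) (hodd : Odd (Nat.card N)) : Nat.card N ≤ B (Nat.card Ω) := by
  rw [← index_ker_subgroup N]
  exact index_ker_le_B N hodd _ Ω rfl

theorem two_mul_three_pow_le {k : ℕ} (h : 8 ≤ k) : 2 * 3 ^ k ≤ T (2 * k) := by
  induction k using Nat.strong_induction_on with
  | _ k ih =>
    by_cases h12 : 12 ≤ k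
    · obtain ⟨m, rfl⟩ : ∃ m, k = m + 4 := ⟨k - 4, by omega⟩
      have h1 := ih m (by omega) (by omega)
      calc 2 * 3 ^ (m + 4) = 2 * 3 ^ m * 81 := by ring
        _ ≤ T (2 * m) * T 8 := Nat.mul_le_mul h1 (le_trans (by norm_num) T_eight)
        _ ≤ T (2 * m + 8) := T_add _ _
        _ = T (2 * (m + 4)) := by ring_nf
    · have h16 : 2 ^ 15 ≤ T 16 := le_T_of_dvd (by decide)
      have h18 : 2 ^ 16 ≤ T 18 := le_T_of_dvd (by decide)
      have h20 : 2 ^ 18 ≤ T 20 := le_T_of_dvd (by decide)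
      have h22 : 2 ^ 19 ≤ T 22 := le_T_of_dvd (by decide)
      interval_cases k <;> norm_num at * <;> omega

theorem two_B_le {n : ℕ} (h2 : 2 ≤ n) (hn : n % 4 ≠ 3) (h5 : n ≠ 5) (h6 : n ≠ 6) (h9 : n ≠ 9) :
    2 * B n ≤ T n := by
  by_cases h17 : 17 ≤ n
  · calc 2 * B n ≤ 2 * 3 ^ ((n - 1) / 2) := Nat.mul_le_mul_left _ (B_le n)
      _ ≤ T (2 * ((n - 1) / 2)) := two_mul_three_pow_le (by omega)
      _ ≤ T n := T_mono (by omega)
  · have t2 : 2 ^ 1 ≤ T 2 := le_T_of_dvd (by decide)
    have t4 : 2 ^ 3 ≤ T 4 := le_T_of_dvd (by decide)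
    have t8 : 2 ^ 7 ≤ T 8 := le_T_of_dvd (by decide)
    have t10 : 2 ^ 8 ≤ T 10 := le_T_of_dvd (by decide)
    have t12 : 2 ^ 10 ≤ T 12 := le_T_of_dvd (by decide)
    have t13 : 2 ^ 10 ≤ T 13 := le_T_of_dvd (by decide)
    have t14 : 2 ^ 11 ≤ T 14 := le_T_of_dvd (by decide)
    have t16 : 2 ^ 15 ≤ T 16 := le_T_of_dvd (by decide)
    have b : ∀ k, B k = if k = 7 then 9 else if k = 11 then 81 else if k = 13 then 243 else
      if k = 15 then 729 else 3 ^ ((k - 1) / 2) := fun k => rfl
    interval_cases n <;> first | omega | (rw [b]; norm_num at *; omega)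

theorem two_B_le' {n : ℕ} (h7 : 7 ≤ n) (hn : n % 4 = 3) : 2 * B n ≤ 3 * T (n - 3) := by
  by_cases h19 : 19 ≤ n
  · obtain ⟨k, rfl⟩ : ∃ k, n = 2 * k + 3 := ⟨(n - 3) / 2, by omega⟩
    have e1 : 2 * k + 3 - 3 = 2 * k := by omega
    have e2 : (2 * k + 3 - 1) / 2 = k + 1 := by omega
    have h1 := two_mul_three_pow_le (k := k) (by omega)
    calc 2 * B (2 * k + 3) ≤ 2 * 3 ^ (k + 1) := by
          have := B_le (2 * k + 3)
          rw [e2] at this
          exact Nat.mul_le_mul_left _ this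
      _ = 3 * (2 * 3 ^ k) := by ring
      _ ≤ 3 * T (2 * k + 3 - 3) := by rw [e1]; exact Nat.mul_le_mul_left _ h1
  · have t4 : 2 ^ 3 ≤ T 4 := le_T_of_dvd (by decide)
    have t8 : 2 ^ 7 ≤ T 8 := le_T_of_dvd (by decide)
    have t12 : 2 ^ 10 ≤ T 12 := le_T_of_dvd (by decide)
    have b : ∀ k, B k = if k = 7 then 9 else if k = 11 then 81 else if k = 13 then 243 else
      if k = 15 then 729 else 3 ^ ((k - 1) / 2) := fun k => rfl
    interval_cases n <;> first | omega | (rw [b]; norm_num at *; omega)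

end Cfsg.Agent.H102.NilpOdd
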