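import Mathlib
import Cfsg.Agent.H102.NilpAlt
import Cfsg.Agent.H102.NilpOdd

/-!
# Orders of nilpotent subgroups of alternating groups
-/

set_option autoImplicit false
set_option linter.style.haveILetI false

namespace Cfsg.Agent.H102.NilpAltCard

open Nat Equiv Equiv.Perm Cfsg.Agent.H101.NilpArith Cfsg.Agent.H101.NilpPerm

/-- the Sylow 2-subgroups of the alternating group -/
theorem two_mul_card_sylow {n : ℕ} (hn : 2 ≤ n) (P : Sylow 2 (alternatingGroup (Fin n))) :
    2 * Nat.card P = T n := by
  haveI : Nontrivial (Fin n) := Fin.nontrivial_iff_two_le.2 hn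
  have h := two_mul_nat_card_alternatingGroup (α := Fin n)
  rw [Nat.card_perm, Nat.card_fin] at h
  rw [P.card_eq_multiplicity, T, ← h, Nat.factorization_mul (by norm_num) Nat.card_pos.ne',
    Finsupp.add_apply, Nat.Prime.factorization_self Nat.prime_two, pow_add, pow_one]

/-- A subgroup with an odd permutation has a subgroup of index 2 of even permutations. -/
theorem card_inf {n : ℕ} (D : Subgroup (Perm (Fin n))) (hD : ∃ d ∈ D, sign d = -1) :
    2 * Nat.card (D ⊓ alternatingGroup (Fin n) : Subgroup (Perm (Fin n))) = Nat.card D := by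
  obtain ⟨d, hd, hs⟩ := hD
  let f : D →* ℤˣ := sign.comp D.subtype
  have hf : Function.Surjective f := by
    intro u
    rcases Int.units_eq_one_or u with rfl | rfl
    · exact ⟨1, map_one f⟩
    · exact ⟨⟨d, hd⟩, hs⟩
  have h1 := Subgroup.index_ker f
  rw [MonoidHom.range_eq_top.2 hf] at h1
  have h2 : Nat.card (⊤ : Subgroup ℤˣ) = 2 := by
    rw [Subgroup.card_top, Nat.card_eq_fintype_card]
    rfl
  have h3 := Subgroup.card_mul_index f.ker
  rw [h1, h2] at h3
  rw [← h3, mul_comm]
  congr 1
  have h4 : Nat.card f.ker = Nat.card (f.ker.map D.subtype) := (Subgroup.card_subtype _ _).symm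
  rw [h4]
  congr 1
  have : f.ker.map D.subtype = D ⊓ alternatingGroup (Fin n) := by
    ext x
    constructor
    · rintro ⟨y, hy, rfl⟩
      exact ⟨y.2, hy⟩
    · rintro ⟨hx, hx'⟩
      exact ⟨⟨x, hx⟩, hx', rfl⟩
  rw [this]

/-- the dichotomy in terms of orders -/
theorem two_mul_card_le {n : ℕ} (N : Subgroup (alternatingGroup (Fin n)))
    (hN : Group.IsNilpotent N) (hodd : ¬ Odd (Nat.card N)) :
    ∃ D : Subgroup (Perm (Fin n)), Group.IsNilpotent D ∧
      N.map (alternatingGroup (Fin n)).subtype ≤ D ∧ (∃ d ∈ D, sign d = -1) ∧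
      2 * Nat.card N ≤ Nat.card D ∧ Nat.card D ≤ G n := by
  have e := N.equivMapOfInjective (alternatingGroup (Fin n)).subtype Subtype.val_injective
  have hcard : Nat.card (N.map (alternatingGroup (Fin n)).subtype) = Nat.card N :=
    Nat.card_congr e.symm.toEquiv
  have hnil : Group.IsNilpotent (N.map (alternatingGroup (Fin n)).subtype) :=
    Group.nilpotent_of_surjective e.toMonoidHom e.surjective
  obtain ⟨D, hD, hle, hd⟩ := NilpAlt.dichotomy _ hnil (by rwa [hcard])
  refine ⟨D, hD, hle, hd, ?_, ?_⟩
  · rw [← card_inf D hd, ← hcard]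
    apply Nat.mul_le_mul_left
    apply Subgroup.card_le_of_le
    apply le_inf hle
    rintro _ ⟨x, -, rfl⟩
    exact x.2
  · have := card_le_G D hD
    rwa [Nat.card_fin] at this

/-- odd order -/
theorem card_le_B {n : ℕ} (N : Subgroup (alternatingGroup (Fin n)))
    (hN : Group.IsNilpotent N) (hodd : Odd (Nat.card N)) : Nat.card N ≤ NilpOdd.B n := by
  have e := N.equivMapOfInjective (alternatingGroup (Fin n)).subtype Subtype.val_injective
  have hcard : Nat.card (N.map (alternatingGroup (Fin n)).subtype) = Nat.card N :=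
    Nat.card_congr e.symm.toEquiv
  have hnil : Group.IsNilpotent (N.map (alternatingGroup (Fin n)).subtype) :=
    Group.nilpotent_of_surjective e.toMonoidHom e.surjective
  have := NilpOdd.card_le_B _ hnil (by rwa [hcard])
  rwa [hcard, Nat.card_fin] at this

theorem main_even {n : ℕ} (hn : n % 4 ≠ 3) (h5 : n ≠ 5) (h6 : n ≠ 6) (h9 : n ≠ 9)
    (N : Subgroup (alternatingGroup (Fin n))) (hN : Group.IsNilpotent N)
    (P : Sylow 2 (alternatingGroup (Fin n))) :
    Nat.card N ≤ Nat.card P := by
  by_cases h2 : 2 ≤ n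
  · have hP := two_mul_card_sylow h2 P
    by_cases hodd : Odd (Nat.card N)
    · have h1 := card_le_B N hN hodd
      have h3 := NilpOdd.two_B_le h2 hn h5 h6 h9
      omega
    · obtain ⟨D, -, -, -, h1, h3⟩ := two_mul_card_le N hN hodd
      have h4 : G n = T n := by
        unfold G
        rw [if_neg hn]
      omega
  · have hs : Subsingleton (Perm (Fin n)) := by
      have : Subsingleton (Fin n) := Fin.subsingleton_iff_le_one.2 (by omega)
      infer_instance
    have hs' : Subsingleton (alternatingGroup (Fin n)) := inferInstance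
    have : Nat.card N ≤ 1 := by
      rw [Finite.card_le_one_iff_subsingleton]
      infer_instance
    exact this.trans Nat.card_pos

end Cfsg.Agent.H102.NilpAltCard
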