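import Cfsg.Agent.H412.Tc.HeisDefs

/-!
# S3621, lemma Sing (helper102 for helper412)

A `K`-linear `y` agreeing pointwise with the Heisenberg group `B`, with scalar `r`-th power, commutes up to a scalar with
every nonscalar `x ∈ B` of order `r`.
-/

set_option autoImplicit false

namespace Cfsg.Agent.H102.TcSing

open Cfsg.Agent.H412.Tc

universe u

section

variable {K V : Type*} [Field K] [AddCommGroup V] [Module K V]

theorem eig_unique {w : V} (hw : w ≠ 0) {a b : Kˣ} {t : V} (h1 : t = (a : K) • w) (h2 : t = (b : K) • w) : a = b := by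
  rw [h1] at h2
  exact Units.ext (smul_left_injective K hw h2)

theorem smul_ne {g : GV V} {v : V} (hv : v ≠ 0) : g • v ≠ 0 := fun h => hv ((smul_eq_zero_iff_eq g).1 h)

/-- a sum of eigenvectors for different eigenvalues is not an eigenvector -/
theorem false_of_sum {x : GV V} (hx : Lin K x) {v w : V} (hv : v ≠ 0) (hw : w ≠ 0) {a b c : Kˣ} (hab : a ≠ b)
    (h1 : x • v = (a : K) • v) (h2 : x • w = (b : K) • w) (h3 : x • (v + w) = (c : K) • (v + w)) : False := by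
  rw [smul_add, h1, h2, smul_add] at h3
  have h4 : ((a : K) - c) • v = ((c : K) - b) • w := by
    rw [sub_smul, sub_smul]
    have : (a : K) • v + (b : K) • w = (c : K) • v + (c : K) • w := h3
    rw [sub_eq_sub_iff_add_eq_add]
    rw [this, add_comm]
  have h5 : x • (((a : K) - c) • v) = (a : K) • (((a : K) - c) • v) := by
    rw [hx, h1, smul_comm]
  have h6 : x • (((a : K) - c) • v) = (b : K) • (((a : K) - c) • v) := by
    rw [h4, hx, h2, smul_comm]
  have h7 : ((a : K) - c) • v = 0 := by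
    by_contra hne
    exact hab (eig_unique hne h5 h6)
  have h8 : ((c : K) - b) • w = 0 := by rw [← h4, h7]
  have h9 : (a : K) - c = 0 := (smul_eq_zero.1 h7).resolve_right hv
  have h10 : (c : K) - b = 0 := (smul_eq_zero.1 h8).resolve_right hw
  exact hab (Units.ext ((sub_eq_zero.1 h9).trans (sub_eq_zero.1 h10)))

theorem Pr_add (r : ℕ) (y : GV V) (ζ : Kˣ) (v w : V) : Pr r y ζ (v + w) = Pr r y ζ v + Pr r y ζ w := by
  unfold Pr
  rw [← Finset.sum_add_distrib]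
  refine Finset.sum_congr rfl fun j _ => ?_
  rw [smul_add, smul_add]

/-- comparison of eigenvector decompositions -/
theorem match_two {r : ℕ} (hr : (r : K) ≠ 0) {x : GV V} (hx : Lin K x) {v w v' w' : V} (hv' : v' ≠ 0)
    (hw' : w' ≠ 0) {a b c d : Kˣ} (ha : a ^ r = 1) (hb : b ^ r = 1) (hc : c ^ r = 1) (hd : d ^ r = 1) (hcd : c ≠ d)
    (h1 : x • v = (a : K) • v) (h2 : x • w = (b : K) • w) (h3 : x • v' = (c : K) • v') (h4 : x • w' = (d : K) • w')
    (h : v + w = v' + w') : (a = c ∧ b = d) ∨ (a = d ∧ b = c) := by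
  have k1 := congrArg (Pr r x c) h
  have k2 := congrArg (Pr r x d) h
  rw [Pr_add, Pr_add, Pr_eig_self hx h3, Pr_eig_ne hx hc hd hcd h4, add_zero] at k1
  rw [Pr_add, Pr_add, Pr_eig_self hx h4, Pr_eig_ne hx hd hc hcd.symm h3, zero_add] at k2
  have e1 : a = c ∨ b = c := by
    by_contra hcon
    push Not at hcon
    rw [Pr_eig_ne hx hc ha hcon.1.symm h1, Pr_eig_ne hx hc hb hcon.2.symm h2, add_zero] at k1
    exact (smul_ne_zero hr hv') k1.symm
  have e2 : a = d ∨ b = d := by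
    by_contra hcon
    push Not at hcon
    rw [Pr_eig_ne hx hd ha hcon.1.symm h1, Pr_eig_ne hx hd hb hcon.2.symm h2, add_zero] at k2
    exact (smul_ne_zero hr hw') k2.symm
  rcases e1 with rfl | rfl
  · rcases e2 with rfl | rfl
    · exact absurd rfl hcd
    · exact Or.inl ⟨rfl, rfl⟩
  · rcases e2 with rfl | rfl
    · exact Or.inr ⟨rfl, rfl⟩
    · exact absurd rfl hcd

/-- linear maps agreeing on all eigenspaces agree -/
theorem ext_of_eig {r : ℕ} (hr1 : 1 < r) (hr : (r : K) ≠ 0) {ω : Kˣ} (hω : IsPrimitiveRoot (ω : K) r) {x g h : GV V}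
    (hx : Lin K x) (hxr : x ^ r = 1) (hg : Lin K g) (hh : Lin K h)
    (H : ∀ ζ : Kˣ, ζ ^ r = 1 → ∀ v : V, x • v = (ζ : K) • v → g • v = h • v) : g = h := by
  have hωr : ω ^ r = 1 := Units.ext (by rw [Units.val_pow_eq_pow_val, hω.pow_eq_one, Units.val_one])
  refine GV_ext fun v => ?_
  have h1 : g • ((r : K) • v) = h • ((r : K) • v) := by
    rw [← sum_Pr hω hr1 x v, Finset.smul_sum, Finset.smul_sum]
    refine Finset.sum_congr rfl fun i _ => ?_
    have h2 : (ω ^ i) ^ r = 1 := by rw [← pow_mul, mul_comm, pow_mul, hωr, one_pow]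
    exact H (ω ^ i) h2 _ (Pr_mem hx hxr h2 v)
  rw [hg, hh] at h1
  exact smul_right_injective V hr h1

end

variable {K V : Type u} [Field K] [Finite K] [AddCommGroup V] [Finite V] [Module K V]
  {A B : Subgroup (GV V)} {r : ℕ}

theorem Sing.main (S : SetB K V A B r) {x y : GV V} (hx : x ∈ B) (hxr : x ^ r = 1)
    (hns : ∀ c : Kˣ, x ≠ scal K V c) (hy : Lin K y) (hyr : ∃ c : Kˣ, y ^ r = scal K V c)
    (hv : ∀ v : V, ∃ b ∈ B, y • v = b • v) : ∃ c : Kˣ, CC c x y := by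
  have hB := S.heis
  have hnt : Nontrivial V := by
    rw [← Finite.one_lt_card_iff_nontrivial]
    have := S.card
    omega
  obtain ⟨ω, hω1, hωr⟩ := hB.exists_root hx hns
  have hprim := primitive hB.prime hω1 hωr
  have hr0 := prime_ne_zero hB.prime hω1 hωr
  have hr1 := hB.prime.one_lt
  have hxl := hB.linb hx
  -- nonzero eigenspaces
  have hne : ∀ ζ : Kˣ, ζ ^ r = 1 → ∃ v : V, v ≠ 0 ∧ x • v = (ζ : K) • v := by
    intro ζ hζ
    obtain ⟨v, hv0⟩ := exists_ne (0 : V)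
    obtain ⟨i, -, hi⟩ := exists_Pr_ne hprim hr1 hr0 x hv0
    have h2 : (ω ^ i) ^ r = 1 := by rw [← pow_mul, mul_comm, pow_mul, hωr, one_pow]
    have h3 := Pr_mem hxl hxr h2 v
    obtain ⟨b, hb, hcc⟩ := hB.exists_cc_eq hx hns (ζ := ζ * (ω ^ i)⁻¹) (by rw [mul_pow, inv_pow, h2, hζ, inv_one, one_mul])
    refine ⟨b • Pr r x (ω ^ i) v, smul_ne hi, ?_⟩
    rw [hcc.smul, h3, hB.linb hb, smul_smul, ← Units.val_mul, inv_mul_cancel_right]
  -- pointwise
  have hpt : ∀ (ζ : Kˣ), ζ ^ r = 1 → ∀ v : V, x • v = (ζ : K) • v → ∃ c : Kˣ, c ^ r = 1 ∧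
      x • y • v = ((c * ζ : Kˣ) : K) • y • v := by
    intro ζ hζ v hxv
    obtain ⟨b, hb, hyb⟩ := hv v
    obtain ⟨c, hc⟩ := hB.cc hx hb
    refine ⟨c, hB.cc_pow hx hb hc, ?_⟩
    rw [hyb, hc.smul, hxv, hB.linb hb, smul_smul, ← Units.val_mul]
  have hf : ∀ ζ : Kˣ, ∃ ζ' : Kˣ, ζ ^ r = 1 → ζ' ^ r = 1 ∧
      ∀ v : V, x • v = (ζ : K) • v → x • y • v = (ζ' : K) • y • v := by
    intro ζ
    by_cases hζ : ζ ^ r = 1
    · obtain ⟨v, hv0, hxv⟩ := hne ζ hζ
      obtain ⟨c, hcr, hc⟩ := hpt ζ hζ v hxv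
      refine ⟨c * ζ, fun _ => ⟨by rw [mul_pow, hcr, hζ, one_mul], fun w hxw => ?_⟩⟩
      by_cases hw0 : w = 0
      · rw [hw0, smul_zero, smul_zero, smul_zero]
      obtain ⟨d, hdr, hd⟩ := hpt ζ hζ w hxw
      by_cases hcd : c * ζ = d * ζ
      · rw [hcd]; exact hd
      · exfalso
        obtain ⟨e, her, he⟩ := hpt ζ hζ (v + w) (by rw [smul_add, hxv, hxw, smul_add])
        rw [smul_add y] at he
        exact false_of_sum hxl (smul_ne hv0) (smul_ne hw0) hcd hc hd he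
    · exact ⟨1, fun h => absurd h hζ⟩
  choose f hf using hf
  -- comparison of two eigenvalues
  have hcmp : ∀ ζ ζ' : Kˣ, ζ ^ r = 1 → ζ' ^ r = 1 → ζ ≠ ζ' → f ζ * ζ' = f ζ' * ζ ∨ f ζ * ζ = f ζ' * ζ' := by
    intro ζ ζ' hζ hζ' hne'
    obtain ⟨v, hv0, hxv⟩ := hne ζ hζ
    obtain ⟨w, hw0, hxw⟩ := hne ζ' hζ'
    obtain ⟨b, hb, hyb⟩ := hv (v + w)
    obtain ⟨c, hc⟩ := hB.cc hx hb
    have hcr := hB.cc_pow hx hb hc
    have h3 : x • b • v = ((c * ζ : Kˣ) : K) • b • v := by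
      rw [hc.smul, hxv, hB.linb hb, smul_smul, ← Units.val_mul]
    have h4 : x • b • w = ((c * ζ' : Kˣ) : K) • b • w := by
      rw [hc.smul, hxw, hB.linb hb, smul_smul, ← Units.val_mul]
    rw [smul_add, smul_add] at hyb
    have h5 := match_two hr0 hxl (smul_ne hv0) (smul_ne hw0) (hf ζ hζ).1 (hf ζ' hζ').1
      (by rw [mul_pow, hcr, hζ, one_mul]) (by rw [mul_pow, hcr, hζ', one_mul]) (fun h => hne' (mul_left_cancel h))
      ((hf ζ hζ).2 v hxv) ((hf ζ' hζ').2 w hxw) h3 h4 hyb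
    rcases h5 with ⟨h6, h7⟩ | ⟨h6, h7⟩
    · left; rw [h6, h7, mul_assoc, mul_assoc, mul_comm ζ]
    · right; rw [h6, h7, mul_assoc, mul_assoc, mul_comm ζ]
  have htype : ∀ ζ : Kˣ, ζ ^ r = 1 → f ζ = f 1 * ζ ∨ f ζ = f 1 * ζ⁻¹ := by
    intro ζ hζ
    by_cases h1 : ζ = 1
    · left; rw [h1, mul_one]
    · rcases hcmp ζ 1 hζ (one_pow r) h1 with h2 | h2
      · left; rw [← h2, mul_one]
      · right; rw [mul_one] at h2; rw [← h2, mul_inv_cancel_right]
  -- the first case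
  have hfirst : (∀ ζ : Kˣ, ζ ^ r = 1 → f ζ = f 1 * ζ) → ∃ c : Kˣ, CC c x y := by
    intro hall
    refine ⟨f 1, ?_⟩
    refine ext_of_eig hr1 hr0 hprim hxl hxr (hxl.mul hy) ((lin_scal _).mul (hy.mul hxl)) fun ζ hζ v hxv => ?_
    rw [mul_smul, (hf ζ hζ).2 v hxv, hall ζ hζ, mul_smul, mul_smul, hxv, hy, scal_smul, smul_smul, ← Units.val_mul]
  by_cases h2 : r = 2
  · refine hfirst fun ζ hζ => ?_
    have h3 : ζ⁻¹ = ζ := by
      rw [inv_eq_iff_mul_eq_one, ← pow_two, ← h2, hζ]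
    rcases htype ζ hζ with h | h
    · exact h
    · rw [h, h3]
  have hodd : Odd r := hB.prime.odd_of_ne_two h2
  have hsq : ∀ ζ : Kˣ, ζ ^ r = 1 → ζ * ζ = 1 → ζ = 1 := by
    intro ζ hζ hζ2
    obtain ⟨k, hk⟩ := hodd
    have h3 : ζ ^ r = ζ := by
      rw [hk, pow_succ, pow_mul, pow_two, hζ2, one_pow, one_mul]
    rw [← h3, hζ]
  by_cases hall : ∀ ζ : Kˣ, ζ ^ r = 1 → f ζ = f 1 * ζ
  · exact hfirst hall
  push Not at hall
  obtain ⟨η, hη, hηf⟩ := hall
  have hη1 : η ≠ 1 := fun h => hηf (by rw [h, mul_one])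
  have hηf' : f η = f 1 * η⁻¹ := (htype η hη).resolve_left hηf
  have hinv : ∀ ζ : Kˣ, ζ ^ r = 1 → f ζ = f 1 * ζ⁻¹ := by
    intro ζ hζ
    rcases htype ζ hζ with h3 | h3
    · by_cases h1 : ζ = 1
      · rw [h1, inv_one, mul_one]
      · exfalso
        by_cases h4 : ζ = η
        · rw [h4] at h3; exact hηf h3
        · rcases hcmp ζ η hζ hη h4 with h5 | h5
          · -- `f 1 * ζ * η = f 1 * η⁻¹ * ζ`
            rw [h3, hηf', mul_assoc, mul_assoc] at h5
            have h6 := mul_left_cancel h5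
            rw [mul_comm ζ η] at h6
            have h7 := mul_right_cancel h6
            exact hη1 (hsq η hη (eq_inv_iff_mul_eq_one.1 h7))
          · rw [h3, hηf', inv_mul_cancel_right, mul_assoc] at h5
            have h6 : ζ * ζ = 1 := mul_left_cancel (h5.trans (mul_one _).symm)
            exact h1 (hsq ζ hζ h6)
    · exact h3
  -- `y * y` commutes with `x`
  have hyy : x * (y * y) = y * y * x := by
    refine ext_of_eig hr1 hr0 hprim hxl hxr (hxl.mul (hy.mul hy)) ((hy.mul hy).mul hxl) fun ζ hζ v hxv => ?_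
    have h3 := (hf ζ hζ)
    have h4 := (hf (f ζ) h3.1).2 (y • v) (h3.2 v hxv)
    rw [hinv (f ζ) h3.1, hinv ζ hζ, mul_inv, inv_inv, mul_inv_cancel_left] at h4
    rw [mul_smul, mul_smul, h4, mul_smul, mul_smul, hxv, hy, hy]
  obtain ⟨c, hc⟩ := hyr
  refine ⟨1, cc_one_iff.2 ?_⟩
  obtain ⟨k, hk⟩ := hodd
  have h3 : Commute x (y * y) := hyy
  have h4 : Commute x (y ^ r) := by
    rw [hc]
    exact hxl.scal_commute c
  have h5 : y = ((y * y) ^ k)⁻¹ * y ^ r := by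
    rw [hk, ← pow_two, ← pow_mul, pow_succ, ← mul_assoc, inv_mul_cancel, one_mul]
  have h6 : Commute x (((y * y) ^ k)⁻¹ * y ^ r) := ((h3.pow_right k).inv_right).mul_right h4
  rw [← h5] at h6
  exact h6.eq

end Cfsg.Agent.H102.TcSing
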